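import Cfsg.Agent.E6Min.Tab

set_option autoImplicit false

/-!
# The twisted group of type E6: interface (helper19)
-/

namespace Cfsg.Agent.E6Tw

open Cfsg.Agent.E6Min

/-- table of the graph automorphism -/
def bt : ℕ := 0x8f1a2c26f120b67ed18bc5aa53248701abe66c1eb25eb9dac5095d2b4ee55381e74720383511f3630c982a28b9412483844684f1a165898822181900a08080

/-- the graph automorphism on the roots of type E6 -/
def br (r : ℕ) : ℕ := (bt >>> (7 * r)) % 128

/-- long roots (fixed by the graph automorphism) -/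
def fx (r : ℕ) : Bool := br r == r

/-- the roots which may occur in the commutator of the root subgroups of `r` and `s` -/
def cm (r s : ℕ) : List ℕ :=
  ([sm r s, sm r (br s), sm (br r) s, sm (br r) (br s)] ++
    (if sm r s = 127 then [] else [sm (sm r s) (br s), sm (sm r s) (br r)])).filter fun c => !(c == 127)

/-- relative reflections -/
def wi (i s : ℕ) : ℕ :=
  match i with
  | 0 => rf 0 (rf 5 s)
  | 1 => rf 2 (rf 4 s)
  | 2 => rf 3 s
  | _ => rf 1 s

/-- the action of the root elements of the twisted group on a vector space: `TL` for the long roots (parameters in `k`),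
`TS` for the short roots (parameters in `K`) -/
structure ActT (k K V : Type*) [Field k] [Field K] [AddCommGroup V] [Module ℂ V] where
  TL : ℕ → k → (V →ₗ[ℂ] V)
  TS : ℕ → K → (V →ₗ[ℂ] V)
  C : ℕ → ℕ → k
  B : ℕ → ℕ → K → K → k
  addL : ∀ r, r < 72 → fx r = true → ∀ s t v, TL r (s + t) v = TL r s (TL r t v)
  zeroL : ∀ r, r < 72 → fx r = true → ∀ v, TL r 0 v = v
  addS : ∀ r, r < 72 → fx r = false → ∀ s t v, TS r (s + t) v = TS r s (TS r t v)
  zeroS : ∀ r, r < 72 → fx r = false → ∀ v, TS r 0 v = v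
  bar : ∀ r, r < 72 → fx r = false → ∀ v, (∀ t, TS r t v = v) → ∀ t, TS (br r) t v = v
  comm : ∀ r s, r < 72 → s < 72 → s ≠ 71 - r → s ≠ 71 - br r → ∀ v,
    (∀ c ∈ cm r s, (fx c = true → ∀ t, TL c t v = v) ∧ (fx c = false → ∀ t, TS c t v = v)) →
    (fx r = true → fx s = true → ∀ t u, TL r t (TL s u v) = TL s u (TL r t v)) ∧
    (fx r = true → fx s = false → ∀ t u, TL r t (TS s u v) = TS s u (TL r t v)) ∧
    (fx r = false → fx s = true → ∀ t u, TS r t (TL s u v) = TL s u (TS r t v)) ∧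
    (fx r = false → fx s = false → ∀ t u, TS r t (TS s u v) = TS s u (TS r t v))
  C_ne : ∀ r s, r < 72 → s < 72 → fx r = true → fx s = true → s ≠ r → s ≠ 71 - r → sm r s ≠ 127 → C r s ≠ 0
  shiftLL : ∀ r s, r < 72 → s < 72 → fx r = true → fx s = true → s ≠ r → s ≠ 71 - r → sm r s ≠ 127 → ∀ t u v,
    TL r t (TL s u v) = TL s u (TL r t (TL (sm r s) (C r s * t * u) v))
  shiftSS : ∀ r s, r < 72 → s < 72 → fx r = false → fx s = false → s ≠ 71 - r → s ≠ 71 - br r → sm r s ≠ 127 → fx (sm r s) = true → ∀ t u v,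
    TS r t (TS s u v) = TS s u (TS r t (TL (sm r s) (B r s t u) v))
  B_add : ∀ r s t t' u, B r s (t + t') u = B r s t u + B r s t' u
  B_add' : ∀ r s t u u', B r s t (u + u') = B r s t u + B r s t u'
  B_surj : ∀ r s, r < 72 → s < 72 → fx r = false → fx s = false → s ≠ 71 - r → s ≠ 71 - br r → sm r s ≠ 127 → fx (sm r s) = true →
    ∀ u, u ≠ 0 → ∀ y, ∃ t, B r s t u = y
  D : ℕ → ℕ → K
  D_ne : ∀ r s, r < 72 → s < 72 → fx r = false → fx s = false → s ≠ 71 - r → s ≠ 71 - br r → sm r s ≠ 127 → fx (sm r s) = false → D r s ≠ 0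
  shiftSK : ∀ r s, r < 72 → s < 72 → fx r = false → fx s = false → s ≠ 71 - r → s ≠ 71 - br r → sm r s ≠ 127 → fx (sm r s) = false →
    ∀ t u v, TS r t (TS s u v) = TS s u (TS r t (TS (sm r s) (D r s * t * u) v))
  refl : ∀ i, i < 4 → ∃ N : V ≃ₗ[ℂ] V, ∀ s, s < 72 →
    (fx s = true → ∃ η : k, η ≠ 0 ∧ ∀ t v, N (TL s t v) = TL (wi i s) (η * t) (N v)) ∧
    (fx s = false → ∀ v, (∀ t, TS s t v = v) → ∀ t, TS (wi i s) t (N v) = N v)

end Cfsg.Agent.E6Tw
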