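import Cfsg.Agent.E6Tw.Rel0
import Cfsg.Agent.ChevTw.Inst

set_option autoImplicit false
set_option linter.all false
set_option maxRecDepth 100000

/-!
# The representatives of the reflections of the twisted group of type E6 (helper59)
-/

namespace Cfsg.Agent.E6Tw

open Cfsg.Lie Cfsg.Agent.E6Min Cfsg.Agent.Chev Cfsg.Agent.ChevGrp Cfsg.Agent.ChevTw

namespace Refl

theorem goodE6 : Good chevE6 := Cfsg.Agent.Chev.good_of_mem hE6

variable {K : Type*} [Field K] (φ : K ≃+* K)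

theorem el_eq_xG {r : ℕ} (h : r < 72) (t : K) : el r t = xG goodE6.toGood2 r t := by
  apply Subtype.ext
  rw [coe_el h]
  apply Units.ext
  rfl

/-- the automorphism -/
noncomputable def sg : ↥(chevE6.group K) ≃* ↥(chevE6.group K) := sE6 goodE6 φ

theorem sig_el {r : ℕ} (hr : r < 72) (t : K) : sg φ (el r t) = el (br r) (ep K r * φ t) := by
  obtain ⟨h1, h2, -⟩ := br_facts hr
  rw [el_eq_xG hr, el_eq_xG h2]
  unfold sg
  rw [sgm_xG goodE6 _ _ _ φ (show r < chevE6.nroots from hr), h1]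
  rfl

theorem ys_short {r : ℕ} (hr : r < 72) (h : fx r = false) (t : K) : ys φ r t = el r t * sg φ (el r t) := by
  unfold ys
  rw [sig_el φ hr, h]
  rfl

theorem ys_long {r : ℕ} (h : fx r = true) (t : K) : ys φ r t = el r t := by
  unfold ys
  rw [h]
  rfl

theorem rf_facts {i s : ℕ} (hi : i < 6) (hs : s < 72) : chevE6.reflectRoot i s = rf i s ∧ rf i s < 72 := by
  have hrf := List.all_eq_true.1 (List.all_eq_true.1 chk_rf i (List.mem_range.2 hi)) s (List.mem_range.2 hs)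
  rwa [Bool.and_eq_true, beq_iff_eq, Nat.blt_eq] at hrf

theorem nG_el {i s : ℕ} (hi : i < 6) (hs : s < 72) : ∃ η : ℤ, (η = 1 ∨ η = -1) ∧ ∀ t : K,
    nG goodE6.toGood2 (chevE6.simple i) (1:K) * el s t =
      el (rf i s) ((η:K) * t) * nG goodE6.toGood2 (chevE6.simple i) (1:K) := by
  obtain ⟨h1, h2⟩ := rf_facts hi hs
  obtain ⟨η, hη, h⟩ := Cfsg.Agent.S1031.result (F := K) chevE6 hE6 i s hi hs
  refine ⟨η, hη, fun t => ?_⟩
  rw [el_eq_xG hs, el_eq_xG h2]
  apply ChevTw.eq_of_coe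
  rw [Subgroup.coe_mul, Subgroup.coe_mul, Units.val_mul, Units.val_mul, nG_coe, xG_coe, xG_coe, ← h1]
  exact h t

theorem wi_facts : ((List.range 4).all fun i => (List.range 72).all fun s =>
    Nat.blt (wi i s) 72 && (fx (wi i s) == fx s)) = true := by decide +kernel

theorem wi_fact {i s : ℕ} (hi : i < 4) (hs : s < 72) : wi i s < 72 ∧ fx (wi i s) = fx s := by
  have h := List.all_eq_true.1 (List.all_eq_true.1 wi_facts i (List.mem_range.2 hi)) s (List.mem_range.2 hs)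
  rwa [Bool.and_eq_true, beq_iff_eq, Nat.blt_eq] at h

theorem pm_mul {a b : ℤ} (ha : a = 1 ∨ a = -1) (hb : b = 1 ∨ b = -1) : a * b = 1 ∨ a * b = -1 := by
  rcases ha with rfl | rfl <;> rcases hb with rfl | rfl <;> simp

variable {E : DData chevE6} (I : RInst goodE6 E K)

theorem nj_el (j : Fin chevF4.rank) {s : ℕ} (hs : s < 72) : ∃ η : ℤ, (η = 1 ∨ η = -1) ∧ ∀ t : K,
    njE6 I j * el s t = el (wi j s) ((η:K) * t) * njE6 I j := by
  obtain ⟨j, hj0⟩ := j
  have hj' : j < 4 := hj0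
  have one : ∀ i : ℕ, ∀ hi : i < chevE6.rank, I.R.nn ⟨i, hi⟩ = nG goodE6.toGood2 (chevE6.simple i) (1:K) :=
    fun i hi => I.nn_eq ⟨i, hi⟩
  have two : ∀ i i' : ℕ, i < 6 → i' < 6 → ∃ η : ℤ, (η = 1 ∨ η = -1) ∧ ∀ t : K,
      (nG goodE6.toGood2 (chevE6.simple i) (1:K) * nG goodE6.toGood2 (chevE6.simple i') (1:K)) * el s t =
      el (rf i (rf i' s)) ((η:K) * t) * (nG goodE6.toGood2 (chevE6.simple i) (1:K) *
        nG goodE6.toGood2 (chevE6.simple i') (1:K)) := by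
    intro i i' hi hi'
    obtain ⟨a, ha, h1⟩ := nG_el (K := K) hi' hs
    obtain ⟨b, hb, h2⟩ := nG_el (K := K) hi (rf_facts hi' hs).2
    refine ⟨b * a, pm_mul hb ha, fun t => ?_⟩
    rw [mul_assoc, h1 t, ← mul_assoc, h2, mul_assoc]
    push_cast
    rw [mul_assoc (b:K)]
  interval_cases j
  · obtain ⟨η, hη, h⟩ := two 0 5 (by decide) (by decide)
    refine ⟨η, hη, fun t => ?_⟩
    have e : njE6 I ⟨0, hj0⟩ = nG goodE6.toGood2 (chevE6.simple 0) (1:K) * nG goodE6.toGood2 (chevE6.simple 5) (1:K) := by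
      show I.R.nn _ * I.R.nn _ = _
      rw [one, one]
    rw [e]
    exact h t
  · obtain ⟨η, hη, h⟩ := two 2 4 (by decide) (by decide)
    refine ⟨η, hη, fun t => ?_⟩
    have e : njE6 I ⟨1, hj0⟩ = nG goodE6.toGood2 (chevE6.simple 2) (1:K) * nG goodE6.toGood2 (chevE6.simple 4) (1:K) := by
      show I.R.nn _ * I.R.nn _ = _
      rw [one, one]
    rw [e]
    exact h t
  · obtain ⟨η, hη, h⟩ := nG_el (K := K) (i := 3) (by decide) hs
    refine ⟨η, hη, fun t => ?_⟩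
    have e : njE6 I ⟨2, hj0⟩ = nG goodE6.toGood2 (chevE6.simple 3) (1:K) := by
      show I.R.nn _ = _
      rw [one]
    rw [e]
    exact h t
  · obtain ⟨η, hη, h⟩ := nG_el (K := K) (i := 1) (by decide) hs
    refine ⟨η, hη, fun t => ?_⟩
    have e : njE6 I ⟨3, hj0⟩ = nG goodE6.toGood2 (chevE6.simple 1) (1:K) := by
      show I.R.nn _ = _
      rw [one]
    rw [e]
    exact h t

end Refl

open Refl

/-- **the reflections** -/
theorem ys_refl {K : Type*} [Field K] (φ : K ≃+* K) {q : ℕ} (hφ : ∀ t : K, φ t = t ^ q) (hφφ : ∀ t, φ (φ t) = t)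
    {i : ℕ} (hi : i < 4) : ∃ n : ↥(chevE6.group K), (n : GL chevE6.Idx K) ∈ twistedE6 K q ∧
    ∀ s, s < 72 → wi i s < 72 ∧ fx (wi i s) = fx s ∧ ∃ η : ℤ, (η = 1 ∨ η = -1) ∧
      ∀ t : K, n * ys φ s t = ys φ (wi i s) ((η:K) * t) * n := by
  obtain ⟨E, ⟨I⟩⟩ := exists_rinst (D := chevE6) (by simp [types7]) Refl.goodE6 K
  obtain ⟨E'⟩ := DData.nonempty_of_mem (D := chevF4) (by simp [types7])
  let T := twE6 E' I φ hφφ hφ
  let j : Fin chevF4.rank := ⟨i, hi⟩
  have hσ : sg φ (njE6 I j) = njE6 I j := T.σ_nj j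
  refine ⟨njE6 I j, ?_, ?_⟩
  · have h1 : njE6 I j ∈ (twistedE6 K q).subgroupOf (chevE6.group K) := T.nj_G1 j
    exact Subgroup.mem_subgroupOf.1 h1
  · intro s hs
    obtain ⟨h1, h2⟩ := wi_fact hi hs
    refine ⟨h1, h2, ?_⟩
    obtain ⟨η, hη, h⟩ := nj_el I j hs
    refine ⟨η, hη, fun t => ?_⟩
    by_cases hf : fx s = true
    · rw [ys_long φ hf, ys_long φ (h2.trans hf)]
      exact h t
    · have hf' : fx s = false := by simpa using hf
      rw [ys_short φ hs hf', ys_short φ h1 (h2.trans hf')]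
      have h3 := congrArg (sg φ) (h t)
      rw [map_mul, map_mul, hσ] at h3
      calc njE6 I j * (el s t * sg φ (el s t)) = (njE6 I j * el s t) * sg φ (el s t) := by group
        _ = el (wi i s) ((η:K) * t) * (njE6 I j * sg φ (el s t)) := by rw [h t]; group; rfl
        _ = el (wi i s) ((η:K) * t) * (sg φ (el (wi i s) ((η:K) * t)) * njE6 I j) := by rw [h3]
        _ = _ := by group

end Cfsg.Agent.E6Tw
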