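import Cfsg.Agent.E6Tw.Mk
import Cfsg.Agent.E6Tw.Refl

set_option autoImplicit false

/-!
# The bridge between representations of the twisted group of type E6 and the interface (helper98)
-/

namespace Cfsg.Agent.E6Tw

open Module Cfsg.Lie Cfsg.Agent.ChevU Cfsg.Agent.E6Min

variable {K : Type*} [Field K] {φ : K ≃+* K}

theorem reflSt (hφφ : ∀ t, φ (φ t) = t) {q : ℕ} (hφ : ∀ t : K, φ t = t ^ q) : ReflSt φ q :=
  fun {_} hi => ys_refl φ hφ hφφ hi

/-- everything for one representation -/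
theorem exists_actT [Fintype K] {q : ℕ} (hq : IsPrimePow q) (hK : Fintype.card K = q ^ 2) {V : Type*}
    [AddCommGroup V] [Module ℂ V] (ρ : Representation ℂ (twistedE6 K q) V) :
    ∃ (k : Subfield K) (A : ActT k K V), Nat.card k = q ∧
      (∀ r, r < 72 → fx r = true → ∀ t : k, ∃ g : twistedE6 K q, A.TL r t = ρ g) ∧
      (∀ r, r < 72 → fx r = false → ∀ t : K, ∃ g : twistedE6 K q, A.TS r t = ρ g) ∧
      (∀ r, r < 72 → fx r = true → ∀ t : k, ∃ g : twistedE6 K q,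
        (g : GL chevE6.Idx K) = ((el r (t : K) : chevE6.group K) : GL chevE6.Idx K) ∧ A.TL r t = ρ g) ∧
      ((∀ r, r < 72 → fx r = true → ∀ t v, A.TL r t v = v) → ∀ g v, ρ g v = v) := by
  obtain ⟨φ, hφ, hφφ⟩ := Cfsg.Agent.ChevTw.setup2 hq hK
  have hφ1 := exists_ne_fix hq.one_lt hK hφ
  have hR : ReflSt φ q := reflSt hφφ hφ
  refine ⟨kf φ, mkActT hφφ hφ ρ hφ1 hR, card_kf hq.one_lt hK hφ, ?_, ?_, ?_, ?_⟩
  · intro r _ _ t
    exact ⟨yt hφφ hφ r t, rfl⟩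
  · intro r _ _ t
    exact ⟨yt hφφ hφ r t, rfl⟩
  · intro r hr hf t
    refine ⟨yt hφφ hφ r t, ?_, rfl⟩
    rw [coe_yt hφφ hφ hr (fun _ => t.2), ys_fx φ hf]
  · intro h g v
    exact triv_of hφφ hφ ρ hq hK (fun r hr hf t v => h r hr hf t v) g v

end Cfsg.Agent.E6Tw
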