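import Cfsg.Agent.E6Tw.Cert

set_option autoImplicit false
set_option linter.unusedSectionVars false

/-!
# The lower bound for the twisted group of type E6 (helper19)
-/

namespace Cfsg.Agent.E6Tw

open Module Cfsg.Agent.H39 Cfsg.Agent.LSU Cfsg.Agent.LSSL Cfsg.Agent.E6Min

variable {k K V : Type*} [Field k] [Fintype k] [Field K] [Fintype K] [AddCommGroup V] [Module ℂ V] [FiniteDimensional ℂ V]

namespace ActT

variable (A : ActT k K V) {ψ : AddChar k ℂ}

/-- the dimension of a nontrivial weight space of a long root subgroup -/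
theorem kappa (hψ : ψ ≠ 0) : ∃ κ : ℕ, ∀ r, r < 72 → fx r = true → ∀ a : k, a ≠ 0 → A.d ψ [r] (one r a) = κ := by
  refine ⟨A.d ψ [0] (one 0 1), ?_⟩
  have hcon : ∀ r, r < 72 → fx r = true → r ≠ 0 → ∃ r' s, r' < r ∧ okPair [] r' r s = true := by
    intro r hr hf h0
    have h := List.all_eq_true.1 con_cov r (List.mem_range.2 hr)
    rw [Bool.or_eq_true, Bool.or_eq_true, hf, beq_iff_eq, List.contains_iff_mem] at h
    rcases h with (h | h) | h
    · exact Bool.noConfusion h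
    · exact absurd h h0
    · obtain ⟨p, hp, hpr⟩ := List.mem_map.1 h
      have h2 := List.all_eq_true.1 con_all p hp
      rw [Bool.and_eq_true, Nat.blt_eq, hpr] at h2
      exact ⟨p.1, p.2.2, h2.2, h2.1⟩
  have h0 : ∀ a : k, a ≠ 0 → A.d ψ [0] (one 0 a) = A.d ψ [0] (one 0 1) := by
    intro a ha
    have h2 := List.all_eq_true.1 con_all (conT.getD 0 (0, 0, 0)) (by decide)
    have h3 : okPair [] 0 (conT.getD 0 (0, 0, 0)).2.1 (conT.getD 0 (0, 0, 0)).2.2 = true := by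
      rw [Bool.and_eq_true] at h2
      exact h2.1
    obtain ⟨m, m1, -, -⟩ := A.pair_R hψ h3
    rw [m1 a ha, m1 1 one_ne_zero]
  intro r
  induction r using Nat.strong_induction_on with
  | _ r ih =>
    intro hr hf a ha
    rcases Nat.eq_zero_or_pos r with rfl | hpos
    · exact h0 a ha
    obtain ⟨r', s, h1, h2⟩ := hcon r hr hf (by omega)
    have hf' : fx r' = true := by
      unfold okPair at h2
      rw [Bool.and_eq_true, Bool.and_eq_true] at h2
      exact h2.1.2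
    obtain ⟨m, m1, m2, -⟩ := A.pair_R hψ h2
    rw [m2 a ha, ← m1 a ha]
    exact ih _ h1 (by omega) hf' a ha

/-- the transfer -/
theorem transfer (hψ : ψ ≠ 0) {x y z : ℕ} {R : List ℕ} (h1 : okPair R x z y = true) (h2 : okPair R y z x = true)
    (h3 : pres (x :: z :: R) x y = true) (h4 : pres (y :: z :: R) y x = true) (hy : y ∉ x :: z :: R) (hx : x ∉ y :: z :: R)
    (hfx : fx x = true) (hfy : fx y = true)
    (hm : ∀ a : k, a ≠ 0 → A.d ψ (x :: z :: R) (one x a) ≤ 1)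
    (H : ∀ a : k, a ≠ 0 → 1 ≤ A.d ψ (y :: x :: z :: R) (one x a)) {a : k} (ha : a ≠ 0) :
    1 ≤ A.d ψ (y :: x :: z :: R) (one y a) := by
  classical
  obtain ⟨m1, a1, a2, a3⟩ := A.pair_R hψ h1
  obtain ⟨m2, b1, b2, b3⟩ := A.pair_R hψ h2
  have hm12 : m1 = m2 := by
    have := (a2 1 one_ne_zero).symm.trans (b2 1 one_ne_zero)
    exact Nat.eq_of_mul_eq_mul_left Fintype.card_pos this
  have hxy : x ≠ y := by rintro rfl; exact hy List.mem_cons_self
  have e1 : ∀ a : k, a ≠ 0 → A.d ψ (x :: z :: R) (one x a) = m1 := by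
    intro a ha
    rw [← a3 a 0 (Or.inl ha)]
    unfold d
    rw [A.W_congr ψ]
    intro w _ _
    unfold one two
    split_ifs <;> rfl
  have e2 : ∀ a : k, a ≠ 0 → A.d ψ (y :: z :: R) (one y a) = m2 := by
    intro a ha
    rw [← b3 a 0 (Or.inl ha)]
    unfold d
    rw [A.W_congr ψ]
    intro w _ _
    unfold one two
    split_ifs <;> rfl
  have hupd : ∀ a b : k, Function.update (one x a) y b = two x y a b := by
    intro a b
    funext w
    unfold two one
    by_cases h : w = y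
    · subst h; rw [Function.update_self, if_neg (Ne.symm hxy), if_pos rfl]
    · rw [Function.update_of_ne h, if_neg h]
  have hupd' : ∀ a b : k, Function.update (one y b) x a = two x y a b := by
    intro a b
    funext w
    unfold two one
    by_cases h : w = x
    · subst h; rw [Function.update_self, if_pos rfl]
    · rw [Function.update_of_ne h, if_neg h]
  have s1 : ∀ a : k, a ≠ 0 → m1 = ∑ b : k, A.d ψ (y :: x :: z :: R) (two x y a b) := by
    intro a ha
    rw [← e1 a ha, A.splitL_one hψ h3 hfy hy]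
    exact Finset.sum_congr rfl fun b _ => by rw [hupd]
  have hperm : ∀ c : ℕ → k, A.d ψ (x :: y :: z :: R) c = A.d ψ (y :: x :: z :: R) c := fun c =>
    A.d_perm ψ (by intro w; simp only [List.mem_cons]; tauto)
  have s2 : ∀ b : k, b ≠ 0 → m2 = ∑ a : k, A.d ψ (y :: x :: z :: R) (two x y a b) := by
    intro b hb
    rw [← e2 b hb, A.splitL_one hψ h4 hfx hx]
    exact Finset.sum_congr rfl fun a _ => by rw [hupd', hperm]
  have t0 : ∀ a : k, two x y a 0 = one x a := by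
    intro a
    funext w
    unfold two one
    split_ifs <;> rfl
  have t1 : ∀ b : k, two x y 0 b = one y b := by
    intro b
    funext w
    unfold two one
    by_cases h : w = x
    · subst h; rw [if_pos rfl, if_neg hxy]
    · rw [if_neg h]
  have hm1 : m1 ≤ 1 := by rw [← e1 1 one_ne_zero]; exact hm 1 one_ne_zero
  have hz : ∀ a b : k, a ≠ 0 → b ≠ 0 → A.d ψ (y :: x :: z :: R) (two x y a b) = 0 := by
    intro a b ha hb
    have h5 := s1 a ha
    rw [← Finset.add_sum_erase _ _ (Finset.mem_univ (0 : k)), t0] at h5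
    have h6 := H a ha
    have h7 : ∑ b ∈ Finset.univ.erase (0 : k), A.d ψ (y :: x :: z :: R) (two x y a b) = 0 := by omega
    rw [Finset.sum_eq_zero_iff] at h7
    exact h7 b (Finset.mem_erase.2 ⟨hb, Finset.mem_univ _⟩)
  have h8 := s2 a ha
  rw [← Finset.add_sum_erase _ _ (Finset.mem_univ (0 : k)), t1] at h8
  have h9 : ∑ b ∈ Finset.univ.erase (0 : k), A.d ψ (y :: x :: z :: R) (two x y b a) = 0 :=
    Finset.sum_eq_zero fun b hb => hz b a (Finset.ne_of_mem_erase hb) ha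
  have h10 : 1 ≤ m1 := by
    have h5 := s1 1 one_ne_zero
    rw [← Finset.add_sum_erase _ _ (Finset.mem_univ (0 : k)), t0] at h5
    have h6 := H 1 one_ne_zero
    omega
  omega

theorem clears0 (hψ : ψ ≠ 0) {q : ℕ} (hk : Fintype.card k = q) (hK : Fintype.card K = q ^ 2) {κ : ℕ}
    (hκ : ∀ r, r < 72 → fx r = true → ∀ a : k, a ≠ 0 → A.d ψ [r] (one r a) = κ) {a : k} (ha : a ≠ 0) :
    κ = q ^ 10 * A.d ψ S0 (one 46 a) := by
  have h := S0_chk
  simp only [Bool.and_eq_true, Nat.beq_eq] at h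
  obtain ⟨⟨⟨⟨⟨⟨h1, h2⟩, h3⟩, -⟩, -⟩, -⟩, -⟩ := h
  rw [← hκ 46 (by norm_num) h3 a ha, A.clears hψ hk hK (by norm_num) h3 ha L46 [46] List.mem_cons_self h1, h2]
  rfl

/-- the base weight -/
theorem base (hψ : ψ ≠ 0) {a : k} (h16 : A.d ψ S0 (one 46 a) = 1) : 1 ≤ A.d ψ P (one 46 a) := by
  have h := S0_chk
  simp only [Bool.and_eq_true] at h
  obtain ⟨⟨⟨⟨⟨⟨-, -⟩, -⟩, h2⟩, h3⟩, h4⟩, h5⟩ := h
  have h17 : A.W ψ S0 (one 46 a) ≤ A.W ψ S1 (one 46 a) := A.triv_list2 h16 le_rfl h2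
  have h18 : A.W ψ S0 (one 46 a) ≤ A.W ψ S2 (one 46 a) := A.triv_list2 h16 h17 h3
  have h19 : A.W ψ S0 (one 46 a) ≤ A.W ψ S3 (one 46 a) := A.triv_list2 h16 h18 h4
  rw [← h16]
  refine Submodule.finrank_mono (h19.trans (A.W_mono ψ fun r hr => ?_))
  rw [List.all_eq_true] at h5
  exact List.contains_iff_mem.1 (h5 r hr)

theorem simples (hψ : ψ ≠ 0) (h16 : ∀ a : k, a ≠ 0 → A.d ψ S0 (one 46 a) = 1) :
    ∀ x ∈ [46, 39], ∀ a : k, a ≠ 0 → 1 ≤ A.d ψ P (one x a) := by
  have b46 : ∀ a : k, a ≠ 0 → 1 ≤ A.d ψ P (one 46 a) := fun a ha => A.base hψ (h16 a ha)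
  have h := trf_chk
  simp only [Bool.and_eq_true, Bool.not_eq_true', List.all_eq_true, List.contains_iff_mem] at h
  obtain ⟨⟨⟨⟨⟨⟨⟨⟨⟨⟨h1, h2⟩, h3⟩, h4⟩, h5⟩, h6⟩, h7⟩, h8⟩, h9⟩, h10⟩, h11⟩ := h
  have hf46 : fx 46 = true := by
    have h := S0_chk
    simp only [Bool.and_eq_true] at h
    exact h.1.1.1.1.2
  have hperm : ∀ c : ℕ → k, A.d ψ (39 :: 46 :: 47 :: RR) c = A.d ψ P c := fun c =>
    A.d_perm ψ fun w => ⟨fun hw => h9 w hw, fun hw => h8 w hw⟩
  intro x hx a ha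
  simp only [List.mem_cons, List.not_mem_nil, or_false] at hx
  rcases hx with rfl | rfl
  · exact b46 a ha
  · rw [← hperm]
    refine A.transfer hψ h1 h2 h3 h4 (not_contains h5) (not_contains h6) hf46 h10 (fun b hb => ?_) (fun b hb => ?_) ha
    · rw [← h16 b hb]
      exact A.d_mono ψ h7
    · rw [hperm]
      exact b46 b hb

/-- the weights of the positive long roots -/
theorem roots (hψ : ψ ≠ 0) (h16 : ∀ a : k, a ≠ 0 → A.d ψ S0 (one 46 a) = 1) : ∀ r, ∀ c ∈ cT, c.1 = r →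
    ∀ a : k, a ≠ 0 → 1 ≤ A.d ψ (c.1 :: ml c.2.1.2.2) (one c.1 a) := by
  intro r
  induction r using Nat.strong_induction_on with
  | _ r ih =>
    intro c hc hcr a ha
    have h := List.all_eq_true.1 cT_all c hc
    unfold cBody at h
    simp only [Bool.and_eq_true, Bool.or_eq_true] at h
    obtain ⟨⟨⟨⟨⟨k1, k2⟩, k3⟩, k4⟩, k5⟩, k6⟩ := h
    rcases k6 with ⟨m1, m2⟩ | m
    · rw [List.contains_iff_mem] at m1
      rw [List.all_eq_true] at m2
      refine (A.simples hψ h16 c.1 m1 a ha).trans (A.d_mono ψ fun x hx => ?_)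
      unfold P
      rw [List.mem_range'_1]
      rcases List.mem_cons.1 hx with h1 | hx
      · rw [h1]
        simp only [List.mem_cons, List.not_mem_nil, or_false] at m1
        omega
      · have h2 := m2 x hx
        rw [Bool.and_eq_true, Nat.ble_eq] at h2
        have h3 : x < 72 := by
          unfold ml at hx
          rw [List.mem_filter, List.mem_range] at hx
          exact hx.1
        omega
    · obtain ⟨⟨⟨⟨⟨m1, m2⟩, m3⟩, m4⟩, m5⟩, m6⟩ := m
      rw [Nat.blt_eq] at m1 m2 k2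
      rw [List.contains_iff_mem] at m4
      obtain ⟨c', hc', hc'1⟩ := List.mem_map.1 m4
      rw [beq_iff_eq] at m5
      rw [List.all_eq_true] at m6
      have h7 := ih c'.1 (by rw [hc'1, ← hcr]; exact m2) c' hc' rfl
      have h8 := List.all_eq_true.1 cT_all c' hc'
      unfold cBody at h8
      simp only [Bool.and_eq_true, beq_iff_eq] at h8
      have hmk : mks c'.1 = c'.2.1.2.2 := h8.1.1.1.2
      rw [← hmk, hc'1] at h7
      refine A.refl2 m1 (by omega) m3 k1 m5 (fun x hx => ?_) h7 ha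
      have h9 := m6 x hx
      simp only [Bool.and_eq_true, Nat.blt_eq, beq_iff_eq, Bool.not_eq_true', beq_eq_false_iff_ne] at h9
      obtain ⟨⟨⟨⟨⟨n1, n2⟩, n3⟩, n4⟩, n5⟩, n6⟩ := h9
      refine ⟨n1, ?_, n3, n4, n5, n6⟩
      unfold ml
      rw [List.mem_filter, List.mem_range]
      exact ⟨n1, n2⟩

theorem layer (hψ : ψ ≠ 0) {q : ℕ} (hk : Fintype.card k = q) (hK : Fintype.card K = q ^ 2)
    (h16 : ∀ a : k, a ≠ 0 → A.d ψ S0 (one 46 a) = 1) {j : ℕ} (hj : j < 12) :
    A.d ψ (ord.getD j 0 :: ord.take j) (fun _ => 0) + (q - 1) * q ^ (lens.getD j 0) ≤ A.d ψ (ord.take j) (fun _ => 0) := by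
  have h := List.all_eq_true.1 ord_chk j (List.mem_range.2 hj)
  rw [Bool.and_eq_true, Bool.and_eq_true, Bool.not_eq_true'] at h
  obtain ⟨⟨h1, h2⟩, h3⟩ := h
  cases hc : cT.find? (fun c => c.1 == ord.getD j 0) with
  | none => rw [hc] at h3; exact Bool.noConfusion h3
  | some c =>
    rw [hc] at h3
    simp only [Bool.and_eq_true, beq_iff_eq, Nat.beq_eq, List.all_eq_true, List.contains_iff_mem] at h3
    obtain ⟨⟨h4, h5⟩, h6⟩ := h3
    have hmem : c ∈ cT := List.mem_of_find?_eq_some hc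
    have h7 := List.all_eq_true.1 cT_all c hmem
    unfold cBody at h7
    simp only [Bool.and_eq_true] at h7
    obtain ⟨⟨⟨⟨⟨k1, k2⟩, k3⟩, k4⟩, k5⟩, -⟩ := h7
    rw [← h4]
    rw [← h4] at h1 h2
    rw [Nat.blt_eq] at k2
    have hk' := hk
    rw [← hk']
    refine A.peel hψ h1 k1 (not_contains h2) fun a ha => ?_
    have h8 : A.d ψ (c.1 :: c.2.2.2) (one c.1 a) ≤ A.d ψ (c.1 :: ord.take j) (one c.1 a) := by
      refine A.d_mono ψ fun x hx => ?_
      rcases List.mem_cons.1 hx with rfl | hx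
      · exact List.mem_cons_self
      · exact List.mem_cons_of_mem _ (h6 x hx)
    refine le_trans ?_ h8
    rw [A.clears hψ hk hK (by omega) k1 ha c.2.2.1 _ List.mem_cons_self k4, h5, hk]
    have h12 := A.roots hψ h16 c.1 c hmem rfl a ha
    have h13 : A.d ψ (c.1 :: ml c.2.1.2.2) (one c.1 a) ≤ A.d ψ (clS c.2.2.1 (c.1 :: c.2.2.2)) (one c.1 a) := by
      refine A.d_mono ψ fun x hx => ?_
      have h14 := (List.all_eq_true.1 k5) x hx
      rw [Bool.or_eq_true, beq_iff_eq, Bool.and_eq_true, Nat.blt_eq] at h14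
      rcases h14 with h14 | h14
      · rw [h14]; exact List.mem_cons_self
      · refine List.mem_cons_of_mem _ ?_
        unfold ml
        rw [List.mem_filter, List.mem_range]
        exact h14
    calc q ^ (lens.getD j 0) = q ^ (lens.getD j 0) * 1 := (mul_one _).symm
      _ ≤ _ := Nat.mul_le_mul_left _ (h12.trans h13)

set_option maxRecDepth 10000 in
theorem ord_take {j : ℕ} (hj : j < 12) : ∀ x, x ∈ ord.take (j + 1) ↔ x ∈ ord.getD j 0 :: ord.take j := by
  have hlen : ord.length = 12 := rfl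
  have hj' : j < ord.length := by rw [hlen]; exact hj
  intro x
  rw [List.take_succ_eq_append_getElem hj', List.mem_append, List.mem_singleton, List.mem_cons, List.getD_eq_getElem _ _ hj']
  tauto

theorem lower (hψ : ψ ≠ 0) {q : ℕ} (hk : Fintype.card k = q) (hK : Fintype.card K = q ^ 2)
    (h16 : ∀ a : k, a ≠ 0 → A.d ψ S0 (one 46 a) = 1) :
    q * (q ^ 6 - q ^ 3 + 1) * (q ^ 4 + 1) ≤ finrank ℂ V + 2 := by
  have h : ∀ j, j ≤ 12 → A.d ψ (ord.take j) (fun _ => 0) + (q - 1) * ∑ i ∈ Finset.range j, q ^ (lens.getD i 0) ≤ finrank ℂ V := by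
    intro j
    induction j with
    | zero =>
      intro _
      rw [Finset.sum_range_zero, mul_zero, add_zero, List.take_zero]
      exact (A.d_nil (ψ := ψ)).le
    | succ j ih =>
      intro hj
      have h1 := ih (by omega)
      have h2 := A.layer hψ hk hK h16 (j := j) (by omega)
      rw [Finset.sum_range_succ, mul_add, A.d_perm ψ (ord_take (by omega : j < 12))]
      omega
  have h1 := h 12 le_rfl
  rw [lens_sum] at h1
  have hq1 : 1 ≤ q := by rw [← hk]; exact Fintype.card_pos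
  obtain ⟨p, rfl⟩ : ∃ p, q = p + 1 := ⟨q - 1, by omega⟩
  rw [Nat.add_sub_cancel] at h1
  have h3 : (p + 1) ^ 3 ≤ (p + 1) ^ 6 := Nat.pow_le_pow_right (by omega) (by norm_num)
  have h2 : p * (2 + (p + 1) + (p + 1) ^ 2 + (p + 1) ^ 3 + 2 * (p + 1) ^ 4 + (p + 1) ^ 5 + (p + 1) ^ 6 + (p + 1) ^ 8 + (p + 1) ^ 9 + (p + 1) ^ 10) + 2 =
      (p + 1) * ((p + 1) ^ 6 - (p + 1) ^ 3 + 1) * ((p + 1) ^ 4 + 1) := by
    zify [h3]
    ring
  omega

theorem pres_nil {r : ℕ} (hr : r < 72) : pres [] 100 r = true := by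
  unfold pres pres2
  rw [Bool.and_eq_true, Nat.blt_eq]
  exact ⟨hr, rfl⟩

theorem main (hψ : ψ ≠ 0) {q : ℕ} (hk : Fintype.card k = q) (hK : Fintype.card K = q ^ 2)
    (hnt : ∃ r, r < 72 ∧ fx r = true ∧ ∃ t v, A.TL r t v ≠ v)
    (hlt : finrank ℂ V < q * (q ^ 6 - q ^ 3 + 1) * (q ^ 4 + 1)) :
    q * (q ^ 6 - q ^ 3 + 1) * (q ^ 4 + 1) ≤ finrank ℂ V + 2 := by
  classical
  obtain ⟨κ, hκ⟩ := A.kappa hψ
  have hq2 : 2 ≤ q := by rw [← hk]; exact Fintype.one_lt_card
  have hpeel : ∀ r, r < 72 → fx r = true → A.d ψ [r] (fun _ => 0) + (q - 1) * κ = finrank ℂ V := by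
    intro r hr hf
    have h2 := A.peel_eq hψ (pres_nil hr) hf List.not_mem_nil (hκ r hr hf)
    rwa [A.d_nil, hk] at h2
  have hkk : ∀ a : k, a ≠ 0 → κ = q ^ 10 * A.d ψ S0 (one 46 a) := fun a ha => A.clears0 hψ hk hK hκ ha
  have hκ1 : κ ≠ 0 := by
    intro hκ0
    obtain ⟨r, hr, hf, t, v, hv⟩ := hnt
    apply hv
    have h1 := hpeel r hr hf
    rw [hκ0, mul_zero, add_zero] at h1
    have h2 : A.W ψ [r] (fun _ => 0) = ⊤ := Submodule.eq_top_of_finrank_eq h1
    have h3 : v ∈ A.W ψ [r] (fun _ => 0) := by rw [h2]; trivial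
    have := (h3 r List.mem_cons_self).1 hf t
    rwa [zero_mul, AddChar.map_zero_eq_one, one_smul] at this
  have hq10 : 0 < q ^ 10 := pow_pos (by omega) _
  -- the case of multiplicity at least two
  have hκ2 : κ < q ^ 10 * 2 := by
    by_contra hcon
    rw [not_lt] at hcon
    have h2c := List.all_eq_true.1 con_all (conT.getD 0 (0, 0, 0)) (by decide)
    have hp : okPair [] 0 (conT.getD 0 (0, 0, 0)).2.1 (conT.getD 0 (0, 0, 0)).2.2 = true := by
      rw [Bool.and_eq_true] at h2c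
      exact h2c.1
    have hf0 : fx 0 = true := by decide +kernel
    have hfr : fx (conT.getD 0 (0, 0, 0)).2.1 = true := by decide +kernel
    have hr72 : (conT.getD 0 (0, 0, 0)).2.1 < 72 := by decide
    have hp2 : pres [(conT.getD 0 (0, 0, 0)).2.1] 100 0 = true := by decide +kernel
    have hnm : 0 ∉ [(conT.getD 0 (0, 0, 0)).2.1] := by decide
    generalize (conT.getD 0 (0, 0, 0)).2.1 = r at hp hfr hr72 hp2 hnm
    obtain ⟨m, m1, m2, m3⟩ := A.pair_R hψ hp
    have h1 : κ = q * m := by rw [← hκ 0 (by norm_num) hf0 1 one_ne_zero, ← hk]; exact m1 1 one_ne_zero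
    have h2 := A.peel (ψ := ψ) hψ (S := [r]) (r := 0) hp2 hf0 hnm (n := m) (by
      intro a ha
      rw [← m3 a 0 (Or.inl ha)]
      refine le_of_eq ?_
      unfold d
      rw [A.W_congr ψ]
      intro w _ _
      unfold one two
      split_ifs <;> rfl)
    have h3 := hpeel r hr72 hfr
    rw [hk] at h2
    obtain ⟨p, rfl⟩ : ∃ p, q = p + 2 := ⟨q - 2, by omega⟩
    have e : p + 2 - 1 = p + 1 := by omega
    rw [e] at h2 h3
    have h4 : (p + 1) * κ ≤ finrank ℂ V := by omega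
    have h5 : (p + 1) * ((p + 2) ^ 10 * 2) ≤ finrank ℂ V := (Nat.mul_le_mul_left _ hcon).trans h4
    have h6 : (p + 2) ^ 3 ≤ (p + 2) ^ 6 := Nat.pow_le_pow_right (by omega) (by norm_num)
    have h7 : (p + 1) * ((p + 2) ^ 10 * 2) = (p + 2) * ((p + 2) ^ 6 - (p + 2) ^ 3 + 1) * ((p + 2) ^ 4 + 1) + (110 + 1551 * p ^ 1 + 6184 * p ^ 2 + 12720 * p ^ 3 + 16191 * p ^ 4 + 13803 * p ^ 5 + 8162 * p ^ 6 + 3375 * p ^ 7 + 961 * p ^ 8 + 180 * p ^ 9 + 20 * p ^ 10 + 1 * p ^ 11) := by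
      zify [h6]
      ring
    omega
  refine A.lower hψ hk hK fun a ha => ?_
  have h1 := hkk a ha
  have h2 : A.d ψ S0 (one 46 a) ≠ 0 := by
    intro h0
    rw [h0, mul_zero] at h1
    exact hκ1 h1
  have h3 : A.d ψ S0 (one 46 a) < 2 := by
    rw [h1] at hκ2
    exact Nat.lt_of_mul_lt_mul_left hκ2
  omega

end ActT

end Cfsg.Agent.E6Tw
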