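import Cfsg.Agent.E6Tw.Bridge
import Cfsg.Agent.E6Tw.Main
import Cfsg.Agent.H59.E6twAr
import Cfsg.Agent.S1066
import Cfsg.Agent.LSU.Irr
import Cfsg.Agent.Char.Degree

set_option autoImplicit false
set_option linter.unusedSectionVars false

/-!
# The smallest degree of a nontrivial representation of the twisted group of type E6 (helper19)
-/

namespace Cfsg.Agent.E6Tw

open Module Cfsg.Lie Cfsg.Agent.ChevU Cfsg.Agent.E6Min

variable {K : Type*} [Field K] [Fintype K]

theorem exists_psi' (F : Type*) [Field F] [Fintype F] : ∃ ψ : AddChar F ℂ, ψ ≠ 0 := by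
  classical
  have : Nontrivial (AddChar F ℂ) := by
    have h1 : Fintype.card (AddChar F ℂ) = Fintype.card F := AddChar.card_eq
    rw [← Fintype.one_lt_card_iff_nontrivial, h1]
    exact Fintype.one_lt_card
  exact exists_ne 0

theorem bound {q : ℕ} (hq : IsPrimePow q) (hK : Fintype.card K = q ^ 2) {k : ℕ}
    (ρ : Representation ℂ (twistedE6 K q) (Fin k → ℂ)) (hirr : ρ.IsIrreducible) (hk : 2 ≤ k) :
    q * (q ^ 6 - q ^ 3 + 1) * (q ^ 4 + 1) ≤ k := by
  classical
  by_contra hcon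
  rw [not_le] at hcon
  obtain ⟨F, A, hF, -, -, -, htr⟩ := exists_actT hq hK ρ
  have hfin : Fintype F := Fintype.ofFinite _
  have hFc : Fintype.card F = q := by rw [← Nat.card_eq_fintype_card, hF]
  obtain ⟨ψ, hψ⟩ := exists_psi' F
  have hnt : ∃ r, r < 72 ∧ fx r = true ∧ ∃ t v, A.TL r t v ≠ v := by
    by_contra hc
    push Not at hc
    obtain ⟨g, v, hgv⟩ := Cfsg.Agent.LSU.exists_ne_of_irr ρ hirr hk
    exact hgv (htr (fun r hr hf t v => hc r hr hf t v) g v)
  have hmain := A.main hψ hFc hK hnt (by rw [Module.finrank_fin_fun]; exact hcon)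
  rw [Module.finrank_fin_fun] at hmain
  have hf : Finite ↥(twistedE6 K q) := inferInstance
  have hirr2 : ρ.IsIrreducible := hirr
  have hdvd := Cfsg.Agent.Char.finrank_dvd_card ρ
  rw [Module.finrank_fin_fun] at hdvd
  have h2 : k ∣ q ^ 36 * (q ^ 2 - 1) * (q ^ 5 + 1) * (q ^ 6 - 1) * (q ^ 8 - 1) * (q ^ 9 + 1) * (q ^ 12 - 1) := by
    rw [← Cfsg.Agent.S1066.result (K := K) hq hK]
    exact hdvd.mul_left _
  exact Cfsg.Agent.H59.E6twAr.artw (q := q) (D := k) (j := q * (q ^ 6 - q ^ 3 + 1) * (q ^ 4 + 1) - k) hq (by omega) (by omega)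
    (by omega) h2

end Cfsg.Agent.E6Tw
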