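import Cfsg.Agent.E6Tw.Act
import Cfsg.Agent.E6Min.Act

set_option autoImplicit false
set_option linter.unusedSectionVars false

/-!
# Weight spaces of root subgroups of the twisted group of type E6 (helper19)
-/

namespace Cfsg.Agent.E6Tw

open Module Cfsg.Agent.H39 Cfsg.Agent.LSU Cfsg.Agent.LSSL Cfsg.Agent.E6Min

variable {k K V : Type*} [Field k] [Fintype k] [Field K] [Fintype K] [AddCommGroup V] [Module ℂ V] [FiniteDimensional ℂ V]

namespace ActT

variable (A : ActT k K V) (ψ : AddChar k ℂ)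

set_option maxRecDepth 100000 in
theorem br_chk : ((List.range 72).all fun r => br (br r) == r && Nat.blt (br r) 72) = true := by decide +kernel

theorem br_br {r : ℕ} (hr : r < 72) : br (br r) = r ∧ br r < 72 := by
  have h := List.all_eq_true.1 br_chk r (List.mem_range.2 hr)
  rw [Bool.and_eq_true, beq_iff_eq, Nat.blt_eq] at h
  exact h

omit [FiniteDimensional ℂ V] [Fintype k] [Fintype K] in
include A in
theorem fx_br {r : ℕ} (hf : fx r = false) (hr : r < 72) : fx (br r) = false := by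
  unfold fx at hf ⊢
  rw [(br_br hr).1]
  rw [beq_eq_false_iff_ne] at hf ⊢
  exact fun h => hf h.symm

/-- weight spaces -/
def W (S : List ℕ) (c : ℕ → k) : Submodule ℂ V where
  carrier := {v | ∀ r ∈ S, (fx r = true → ∀ t, A.TL r t v = ψ (c r * t) • v) ∧ (fx r = false → ∀ t, A.TS r t v = v)}
  add_mem' := by
    intro v w hv hw r hr
    refine ⟨fun h t => ?_, fun h t => ?_⟩
    · rw [map_add, (hv r hr).1 h, (hw r hr).1 h, smul_add]
    · rw [map_add, (hv r hr).2 h, (hw r hr).2 h]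
  zero_mem' := by
    intro r hr
    refine ⟨fun h t => ?_, fun h t => ?_⟩
    · rw [map_zero, smul_zero]
    · rw [map_zero]
  smul_mem' := by
    intro a v hv r hr
    refine ⟨fun h t => ?_, fun h t => ?_⟩
    · rw [map_smul, (hv r hr).1 h, smul_comm]
    · rw [map_smul, (hv r hr).2 h]

theorem mem_W {S : List ℕ} {c : ℕ → k} {v : V} : v ∈ A.W ψ S c ↔
    ∀ r ∈ S, (fx r = true → ∀ t, A.TL r t v = ψ (c r * t) • v) ∧ (fx r = false → ∀ t, A.TS r t v = v) := Iff.rfl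

theorem mem_W_cons {S : List ℕ} {c : ℕ → k} {r : ℕ} {v : V} :
    v ∈ A.W ψ (r :: S) c ↔ ((fx r = true → ∀ t, A.TL r t v = ψ (c r * t) • v) ∧ (fx r = false → ∀ t, A.TS r t v = v)) ∧ v ∈ A.W ψ S c := by
  rw [mem_W, mem_W, List.forall_mem_cons]

/-- dimension of weight spaces -/
noncomputable def d (S : List ℕ) (c : ℕ → k) : ℕ := finrank ℂ (A.W ψ S c)

theorem W_congr {S : List ℕ} {c c' : ℕ → k} (h : ∀ r ∈ S, fx r = true → c r = c' r) : A.W ψ S c = A.W ψ S c' := by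
  ext v
  rw [mem_W, mem_W]
  refine forall₂_congr fun r hr => and_congr_left fun _ => ?_
  exact forall_congr' fun hf => by rw [h r hr hf]

theorem W_perm {S S' : List ℕ} {c : ℕ → k} (h : ∀ r, r ∈ S ↔ r ∈ S') : A.W ψ S c = A.W ψ S' c := by
  ext v
  rw [mem_W, mem_W]
  exact ⟨fun H r hr => H r ((h r).2 hr), fun H r hr => H r ((h r).1 hr)⟩

theorem W_mono {S S' : List ℕ} {c : ℕ → k} (h : ∀ r ∈ S', r ∈ S) : A.W ψ S c ≤ A.W ψ S' c :=
  fun _ hv r hr => hv r (h r hr)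

theorem d_mono {S S' : List ℕ} {c : ℕ → k} (h : ∀ r ∈ S', r ∈ S) : A.d ψ S c ≤ A.d ψ S' c :=
  Submodule.finrank_mono (A.W_mono ψ h)

theorem d_perm {S S' : List ℕ} {c : ℕ → k} (h : ∀ r, r ∈ S ↔ r ∈ S') : A.d ψ S c = A.d ψ S' c := by
  unfold d
  rw [A.W_perm ψ h]

theorem TL_inj {s : ℕ} (hs : s < 72) (hf : fx s = true) (u : k) : Function.Injective (A.TL s u) := by
  have h : Function.LeftInverse (A.TL s (-u)) (A.TL s u) := by
    intro v
    rw [← A.addL s hs hf, neg_add_cancel, A.zeroL s hs hf]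
  exact h.injective

theorem TS_inj {s : ℕ} (hs : s < 72) (hf : fx s = false) (u : K) : Function.Injective (A.TS s u) := by
  have h : Function.LeftInverse (A.TS s (-u)) (A.TS s u) := by
    intro v
    rw [← A.addS s hs hf, neg_add_cancel, A.zeroS s hs hf]
  exact h.injective

/-- the operators of a root subgroup -/
def Op (s : ℕ) : Set (V →ₗ[ℂ] V) := {g | (fx s = true ∧ ∃ u, g = A.TL s u) ∨ (fx s = false ∧ ∃ u, g = A.TS s u)}

theorem Op_inj {s : ℕ} (hs : s < 72) {g : V →ₗ[ℂ] V} (hg : g ∈ A.Op s) : Function.Injective g := by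
  rcases hg with ⟨hf, u, rfl⟩ | ⟨hf, u, rfl⟩
  · exact A.TL_inj hs hf u
  · exact A.TS_inj hs hf u

/-- weights supported at one root -/
def one (r0 : ℕ) (a : k) : ℕ → k := fun r => if r = r0 then a else 0

theorem one_self {r0 : ℕ} {a : k} : one r0 a r0 = a := if_pos rfl
theorem one_ne {r0 r : ℕ} {a : k} (h : r ≠ r0) : one r0 a r = 0 := if_neg h
theorem one_zero {r0 : ℕ} : one r0 (0 : k) = fun _ => 0 := by
  funext r; unfold one; split_ifs <;> rfl

/-- `X_s` preserves the weight spaces of `S` supported at `r0`, provided the roots of `S'` act trivially -/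
def pres2 (S S' : List ℕ) (r0 s : ℕ) : Bool := Nat.blt s 72 && S.all fun r => Nat.blt r 72 && !(s == 71 - r) && !(s == 71 - br r) &&
  (cm r s).all fun c => S'.contains c && !(c == r0)

/-- vectors on which the commutators act trivially -/
theorem op_comm {r s : ℕ} (hr : r < 72) (hs : s < 72) (h1 : s ≠ 71 - r) (h2 : s ≠ 71 - br r) {v : V}
    (hc : ∀ c ∈ cm r s, (fx c = true → ∀ t, A.TL c t v = v) ∧ (fx c = false → ∀ t, A.TS c t v = v)) {g : V →ₗ[ℂ] V} (hg : g ∈ A.Op s) :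
    (fx r = true → ∀ t, A.TL r t (g v) = g (A.TL r t v)) ∧ (fx r = false → ∀ t, A.TS r t (g v) = g (A.TS r t v)) := by
  obtain ⟨c1, c2, c3, c4⟩ := A.comm r s hr hs h1 h2 v hc
  rcases hg with ⟨hf, u, rfl⟩ | ⟨hf, u, rfl⟩
  · exact ⟨fun h t => c1 h hf t u, fun h t => c3 h hf t u⟩
  · exact ⟨fun h t => c2 h hf t u, fun h t => c4 h hf t u⟩

theorem mem_pres2 {S S' : List ℕ} {r0 s : ℕ} (h : pres2 S S' r0 s = true) {a : k} (hW : A.W ψ S (one r0 a) ≤ A.W ψ S' (one r0 a))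
    {v : V} (hv : v ∈ A.W ψ S (one r0 a)) {g : V →ₗ[ℂ] V} (hg : g ∈ A.Op s) : g v ∈ A.W ψ S (one r0 a) := by
  unfold pres2 at h
  rw [Bool.and_eq_true, List.all_eq_true, Nat.blt_eq] at h
  obtain ⟨hs, h⟩ := h
  intro r hr
  have h3 := h r hr
  simp only [Bool.and_eq_true, Nat.blt_eq, beq_iff_eq, Bool.not_eq_true', beq_eq_false_iff_ne, List.contains_iff_mem, List.all_eq_true] at h3
  obtain ⟨⟨⟨hr72, h4⟩, h5⟩, h6⟩ := h3
  have h7 := A.op_comm hr72 hs h4 h5 (v := v) (fun c hc => ?_) hg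
  · refine ⟨fun hf t => ?_, fun hf t => ?_⟩
    · rw [h7.1 hf, (hv r hr).1 hf, map_smul]
    · rw [h7.2 hf, (hv r hr).2 hf]
  · have h8 := h6 c hc
    have h9 := hW hv c h8.1
    refine ⟨fun hf t => ?_, h9.2⟩
    rw [h9.1 hf, one_ne h8.2, zero_mul, AddChar.map_zero_eq_one, one_smul]

/-- the case `S = S'` -/
def pres (S : List ℕ) (r0 s : ℕ) : Bool := pres2 S S r0 s

theorem mem_pres {S : List ℕ} {r0 s : ℕ} (h : pres S r0 s = true) {a : k}
    {v : V} (hv : v ∈ A.W ψ S (one r0 a)) {g : V →ₗ[ℂ] V} (hg : g ∈ A.Op s) : g v ∈ A.W ψ S (one r0 a) :=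
  A.mem_pres2 ψ h le_rfl hv hg

theorem lt_of_pres2 {S S' : List ℕ} {r0 s : ℕ} (h : pres2 S S' r0 s = true) : s < 72 := by
  unfold pres2 at h
  rw [Bool.and_eq_true, Nat.blt_eq] at h
  exact h.1
theorem lt_of_pres {S : List ℕ} {r0 s : ℕ} (h : pres S r0 s = true) : s < 72 := lt_of_pres2 h

theorem TL_Op {s : ℕ} (hf : fx s = true) (u : k) : A.TL s u ∈ A.Op s := Or.inl ⟨hf, u, rfl⟩
theorem TS_Op {s : ℕ} (hf : fx s = false) (u : K) : A.TS s u ∈ A.Op s := Or.inr ⟨hf, u, rfl⟩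

variable {ψ}

/-- splitting with respect to a long root -/
theorem splitL (hψ : ψ ≠ 0) {S : List ℕ} {c : ℕ → k} {r : ℕ} (hr : r < 72) (hf : fx r = true)
    (hinv : ∀ u, ∀ v ∈ A.W ψ S c, A.TL r u v ∈ A.W ψ S c) (hrS : r ∉ S) :
    A.d ψ S c = ∑ a : k, A.d ψ (r :: S) (Function.update c r a) := by
  refine split_gen hψ (A.W ψ S c) (A.TL r) (A.zeroL r hr hf) (A.addL r hr hf) hinv _ fun a v => ?_
  rw [mem_W_cons, Function.update_self, and_comm]
  have e : A.W ψ S (Function.update c r a) = A.W ψ S c := A.W_congr ψ fun x hx _ => Function.update_of_ne (by rintro rfl; exact hrS hx) _ _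
  rw [e]
  refine and_congr_right fun _ => ?_
  constructor
  · exact fun h => h.1 hf
  · exact fun h => ⟨fun _ => h, fun h2 => by rw [hf] at h2; exact Bool.noConfusion h2⟩

theorem splitL_one (hψ : ψ ≠ 0) {S : List ℕ} {r0 r : ℕ} (h : pres S r0 r = true) (hf : fx r = true) (hrS : r ∉ S) (a : k) :
    A.d ψ S (one r0 a) = ∑ b : k, A.d ψ (r :: S) (Function.update (one r0 a) r b) :=
  A.splitL hψ (lt_of_pres h) hf (fun u _ hv => A.mem_pres ψ h hv (A.TL_Op hf u)) hrS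

end ActT

end Cfsg.Agent.E6Tw
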