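import Cfsg.Agent.E6Tw.Lin
import Cfsg.Agent.E6Min.Act2

set_option autoImplicit false
set_option linter.unusedSectionVars false

/-!
# Weight spaces of root subgroups of the twisted group of type E6: clearing (helper19)
-/

namespace Cfsg.Agent.E6Tw

open Module Cfsg.Agent.H39 Cfsg.Agent.LSU Cfsg.Agent.LSSL Cfsg.Agent.E6Min

variable {k K V : Type*} [Field k] [Fintype k] [Field K] [Fintype K] [AddCommGroup V] [Module ℂ V] [FiniteDimensional ℂ V]

/-- decomposition with respect to all characters -/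
theorem split_char (W0 : Submodule ℂ V) (U : K → (V →ₗ[ℂ] V)) (h0 : ∀ v, U 0 v = v)
    (hU : ∀ a b v, U (a + b) v = U a (U b v)) (hW : ∀ t, ∀ v ∈ W0, U t v ∈ W0) :
    finrank ℂ W0 = ∑ χ : AddChar K ℂ, finrank ℂ (W0 ⊓ wt U χ : Submodule ℂ V) := by
  classical
  let U' : K → (W0 →ₗ[ℂ] W0) := fun t => (U t).restrict (hW t)
  have h0' : ∀ v, U' 0 v = v := fun v => Subtype.ext (h0 v)
  have hU' : ∀ a b v, U' (a + b) v = U' a (U' b v) := fun a b v => Subtype.ext (hU a b v)
  have h := trace_U h0' hU' 0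
  have h1 : U' 0 = 1 := LinearMap.ext h0'
  rw [h1, LinearMap.trace_one] at h
  have h2 : ((finrank ℂ W0 : ℕ) : ℂ) = ((∑ χ : AddChar K ℂ, finrank ℂ (wt U' χ) : ℕ) : ℂ) := by
    rw [h]
    push_cast
    exact Finset.sum_congr rfl fun χ _ => by rw [AddChar.map_zero_eq_one, one_mul]
  have h3 : finrank ℂ W0 = ∑ χ : AddChar K ℂ, finrank ℂ (wt U' χ) := by exact_mod_cast h2
  rw [h3]
  refine Finset.sum_congr rfl fun χ _ => ?_
  have h4 : (wt U' χ).map W0.subtype = W0 ⊓ wt U χ := by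
    ext v
    rw [Submodule.mem_map, Submodule.mem_inf]
    constructor
    · rintro ⟨w, hw, rfl⟩
      exact ⟨w.2, fun t => congrArg Subtype.val (hw t)⟩
    · rintro ⟨hv, hv2⟩
      exact ⟨⟨v, hv⟩, fun t => Subtype.ext (hv2 t), rfl⟩
  rw [← h4]
  exact (Submodule.finrank_map_subtype_eq _ _).symm

namespace ActT

variable (A : ActT k K V) {ψ : AddChar k ℂ}

theorem update_one_zero {r0 r : ℕ} {a : k} (h : r ≠ r0) : Function.update (one r0 a) r 0 = one r0 a := by
  rw [Function.update_eq_self_iff, one_ne h]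

theorem le_of_map {W1 W2 : Submodule ℂ V} (N : V →ₗ[ℂ] V) (hN : Function.Injective N) (h : ∀ v ∈ W1, N v ∈ W2) :
    finrank ℂ W1 ≤ finrank ℂ W2 := by
  refine LinearMap.finrank_le_finrank_of_injective (f := N.restrict h) ?_
  intro v w hvw
  apply Subtype.ext
  apply hN
  exact congrArg Subtype.val hvw

/-- the clearing step, long roots -/
theorem clearL (hψ : ψ ≠ 0) {S : List ℕ} {r0 r1 s : ℕ} (h1 : pres S r0 r1 = true) (hr1 : r1 ∉ S) (hr0 : r0 ∈ S) (hf0 : fx r0 = true)
    (hf1 : fx r1 = true) (hfs : fx s = true)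
    (h2 : pres S r0 s = true) (hs : sm r1 s = r0) (h127 : r0 ≠ 127) (hne : s ≠ r1) (hneg : s ≠ 71 - r1) {a : k} (ha : a ≠ 0) :
    A.d ψ S (one r0 a) = Fintype.card k * A.d ψ (r1 :: S) (one r0 a) := by
  classical
  rw [A.splitL_one hψ h1 hf1 hr1]
  have hr10 : r1 ≠ r0 := by rintro rfl; exact hr1 hr0
  have hs72 := lt_of_pres h2
  have hr172 := lt_of_pres h1
  have hsm : sm r1 s ≠ 127 := by rw [hs]; exact h127
  have hC := A.C_ne r1 s hr172 hs72 hf1 hfs hne hneg hsm
  have key : ∀ b b' : k, A.d ψ (r1 :: S) (Function.update (one r0 a) r1 b) ≤ A.d ψ (r1 :: S) (Function.update (one r0 a) r1 b') := by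
    intro b b'
    refine le_of_map (A.TL s ((b' - b) / (A.C r1 s * a))) (A.TL_inj hs72 hfs _) fun v hv => ?_
    rw [mem_W_cons] at hv ⊢
    have e : A.W ψ S (Function.update (one r0 a) r1 b) = A.W ψ S (one r0 a) :=
      A.W_congr ψ fun x hx _ => Function.update_of_ne (by rintro rfl; exact hr1 hx) _ _
    have e' : A.W ψ S (Function.update (one r0 a) r1 b') = A.W ψ S (one r0 a) :=
      A.W_congr ψ fun x hx _ => Function.update_of_ne (by rintro rfl; exact hr1 hx) _ _
    rw [e] at hv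
    rw [e']
    refine ⟨⟨fun _ t => ?_, fun h => by rw [hf1] at h; exact Bool.noConfusion h⟩, A.mem_pres ψ h2 hv.2 (A.TL_Op hfs _)⟩
    rw [A.shiftLL r1 s hr172 hs72 hf1 hfs hne hneg hsm, hs, (hv.2 r0 hr0).1 hf0, map_smul, map_smul, hv.1.1 hf1, map_smul, smul_smul,
      ← AddChar.map_add_eq_mul, one_self, Function.update_self, Function.update_self]
    congr 2
    field_simp
    ring
  have hall : ∀ b : k, A.d ψ (r1 :: S) (Function.update (one r0 a) r1 b) = A.d ψ (r1 :: S) (one r0 a) := by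
    intro b
    have := le_antisymm (key b 0) (key 0 b)
    rwa [update_one_zero hr10] at this
  rw [Finset.sum_congr rfl fun b _ => hall b, Finset.sum_const, Finset.card_univ, smul_eq_mul]

/-- the clearing step, short roots -/
theorem clearS (hψ : ψ ≠ 0) {S : List ℕ} {r0 r1 s : ℕ} (h1 : pres S r0 r1 = true) (hr0 : r0 ∈ S) (hf0 : fx r0 = true)
    (hf1 : fx r1 = false) (hfs : fx s = false)
    (h2 : pres S r0 s = true) (hs : sm r1 s = r0) (h127 : r0 ≠ 127) (hneg : s ≠ 71 - r1) (hneg' : s ≠ 71 - br r1) {a : k} (ha : a ≠ 0) :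
    A.d ψ S (one r0 a) = Fintype.card K * A.d ψ (br r1 :: r1 :: S) (one r0 a) := by
  classical
  have hs72 := lt_of_pres h2
  have hr172 := lt_of_pres h1
  have hsm : sm r1 s ≠ 127 := by rw [hs]; exact h127
  have hfsm : fx (sm r1 s) = true := by rw [hs]; exact hf0
  -- the characters
  have hB0 : ∀ u, A.B r1 s 0 u = 0 := by
    intro u
    have := A.B_add r1 s 0 0 u
    rw [add_zero] at this
    exact left_eq_add.1 this
  let f : K → AddChar K ℂ := fun u =>
    { toFun := fun t => ψ (a * A.B r1 s t u)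
      map_zero_eq_one' := by rw [hB0, mul_zero, AddChar.map_zero_eq_one]
      map_add_eq_mul' := fun t t' => by rw [A.B_add, mul_add, AddChar.map_add_eq_mul] }
  have hf : ∀ u t, f u t = ψ (a * A.B r1 s t u) := fun u t => rfl
  have hfinj : Function.Injective f := by
    intro u u' huu
    by_contra hne
    have hd : u - u' ≠ 0 := sub_ne_zero.2 hne
    apply hψ
    ext y
    obtain ⟨t, ht⟩ := A.B_surj r1 s hr172 hs72 hf1 hfs hneg hneg' hsm hfsm (u - u') hd (a⁻¹ * y)
    have h3 : A.B r1 s t u = A.B r1 s t (u - u') + A.B r1 s t u' := by rw [← A.B_add', sub_add_cancel]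
    have h4 : f u t = f u' t := by rw [huu]
    rw [hf, hf, h3, ht, mul_add, mul_inv_cancel_left₀ ha, AddChar.map_add_eq_mul] at h4
    have h5 : ψ (a * A.B r1 s t u') ≠ 0 := by
      intro h6
      have h7 := AddChar.map_add_eq_mul ψ (a * A.B r1 s t u') (-(a * A.B r1 s t u'))
      rw [add_neg_cancel, AddChar.map_zero_eq_one, h6, zero_mul] at h7
      exact one_ne_zero h7
    have h6 : ψ y = 1 := by
      have : ψ y * ψ (a * A.B r1 s t u') = 1 * ψ (a * A.B r1 s t u') := by rw [one_mul]; exact h4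
      exact mul_right_cancel₀ h5 this
    rw [h6, AddChar.zero_apply]
  have hfsurj : Function.Surjective f := by
    have h3 : Fintype.card K = Fintype.card (AddChar K ℂ) := AddChar.card_eq.symm
    exact ((Fintype.bijective_iff_injective_and_card f).2 ⟨hfinj, h3⟩).2
  have hsp := split_char (A.W ψ S (one r0 a)) (A.TS r1) (A.zeroS r1 hr172 hf1) (A.addS r1 hr172 hf1)
    (fun t v hv => A.mem_pres ψ h1 hv (A.TS_Op hf1 t))
  have key : ∀ χ χ' : AddChar K ℂ, finrank ℂ (A.W ψ S (one r0 a) ⊓ wt (A.TS r1) χ : Submodule ℂ V) ≤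
      finrank ℂ (A.W ψ S (one r0 a) ⊓ wt (A.TS r1) χ' : Submodule ℂ V) := by
    intro χ χ'
    obtain ⟨u, hu⟩ := hfsurj (χ' - χ)
    refine le_of_map (A.TS s u) (A.TS_inj hs72 hfs _) fun v hv => ?_
    rw [Submodule.mem_inf] at hv ⊢
    refine ⟨A.mem_pres ψ h2 hv.1 (A.TS_Op hfs _), fun t => ?_⟩
    have h3 : A.TS r1 t v = χ t • v := hv.2 t
    rw [A.shiftSS r1 s hr172 hs72 hf1 hfs hneg hneg' hsm hfsm, hs, (hv.1 r0 hr0).1 hf0, map_smul, map_smul, h3, map_smul, smul_smul,
      one_self, ← hf, hu, ← AddChar.add_apply, sub_add_cancel]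
  have hW0 : A.W ψ S (one r0 a) ⊓ wt (A.TS r1) 0 = A.W ψ (br r1 :: r1 :: S) (one r0 a) := by
    ext v
    rw [Submodule.mem_inf, mem_wt_zero, mem_W_cons, mem_W_cons]
    have hbr : fx (br r1) = false → True := fun _ => trivial
    constructor
    · rintro ⟨h3, h4⟩
      refine ⟨⟨fun hfb t => ?_, fun _ => A.bar r1 hr172 hf1 v h4⟩, ⟨fun h => by rw [hf1] at h; exact Bool.noConfusion h, fun _ => h4⟩, h3⟩
      exact absurd hfb (by rw [A.fx_br hf1 hr172]; exact Bool.noConfusion)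
    · rintro ⟨-, h4, h3⟩
      exact ⟨h3, h4.2 hf1⟩
  have hall : ∀ χ : AddChar K ℂ, finrank ℂ (A.W ψ S (one r0 a) ⊓ wt (A.TS r1) χ : Submodule ℂ V) = A.d ψ (br r1 :: r1 :: S) (one r0 a) := by
    intro χ
    unfold d
    rw [← hW0]
    exact le_antisymm (key χ 0) (key 0 χ)
  unfold d at hall ⊢
  rw [hsp, Finset.sum_congr rfl fun χ _ => hall χ, Finset.sum_const, Finset.card_univ, smul_eq_mul, AddChar.card_eq]

end ActT

end Cfsg.Agent.E6Tw
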