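import Cfsg.Agent.E6Tw.Lin2

set_option autoImplicit false
set_option linter.unusedSectionVars false

/-!
# Weight spaces of root subgroups of the twisted group of type E6: pairs, reflections (helper19)
-/

namespace Cfsg.Agent.E6Tw

open Module Cfsg.Agent.H39 Cfsg.Agent.LSU Cfsg.Agent.LSSL Cfsg.Agent.E6Min

variable {k K V : Type*} [Field k] [Fintype k] [Field K] [Fintype K] [AddCommGroup V] [Module ℂ V] [FiniteDimensional ℂ V]

namespace ActT

variable (A : ActT k K V) {ψ : AddChar k ℂ}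

theorem not_contains {S : List ℕ} {r : ℕ} (h : S.contains r = false) : r ∉ S := by
  intro hc
  rw [List.contains_iff_mem.2 hc] at h
  exact Bool.noConfusion h

/-- the list of clearing steps -/
def clr : List (ℕ × ℕ) → ℕ → List ℕ → Bool
  | [], _, _ => true
  | (r1, s) :: L, r0, S => pres S r0 r1 && !(S.contains r1) && pres S r0 s && sm r1 s == r0 && !(s == r1) && !(s == 71 - r1) &&
      !(s == 71 - br r1) && (fx r1 == fx s) && clr L r0 (if fx r1 then r1 :: S else br r1 :: r1 :: S)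

/-- the result of the clearing steps -/
def clS : List (ℕ × ℕ) → List ℕ → List ℕ
  | [], S => S
  | (r1, _) :: L, S => clS L (if fx r1 then r1 :: S else br r1 :: r1 :: S)

/-- the exponent -/
def wl : List (ℕ × ℕ) → ℕ
  | [] => 0
  | (r1, _) :: L => (if fx r1 then 1 else 2) + wl L

theorem clears (hψ : ψ ≠ 0) {q : ℕ} (hk : Fintype.card k = q) (hK : Fintype.card K = q ^ 2) {r0 : ℕ} (h127 : r0 ≠ 127)
    (hf0 : fx r0 = true) {a : k} (ha : a ≠ 0) : ∀ (L : List (ℕ × ℕ)) (S : List ℕ), r0 ∈ S →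
    clr L r0 S = true → A.d ψ S (one r0 a) = q ^ wl L * A.d ψ (clS L S) (one r0 a) := by
  intro L
  induction L with
  | nil => intro S _ _; show _ = q ^ 0 * _; rw [pow_zero, one_mul]; rfl
  | cons p L ih =>
    obtain ⟨r1, s⟩ := p
    intro S hS h
    have h' : (pres S r0 r1 && !(S.contains r1) && pres S r0 s && sm r1 s == r0 && !(s == r1) && !(s == 71 - r1) &&
      !(s == 71 - br r1) && (fx r1 == fx s) && clr L r0 (if fx r1 then r1 :: S else br r1 :: r1 :: S)) = true := h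
    simp only [Bool.and_eq_true, beq_iff_eq, Bool.not_eq_true', beq_eq_false_iff_ne] at h'
    obtain ⟨⟨⟨⟨⟨⟨⟨⟨a1, a2⟩, a3⟩, a4⟩, a5⟩, a6⟩, a7⟩, a8⟩, a9⟩ := h'
    cases hf : fx r1 with
    | true =>
      rw [hf, if_pos rfl] at a9
      rw [hf] at a8
      rw [A.clearL hψ a1 (not_contains a2) hS hf0 hf a8.symm a3 a4 h127 a5 a6 ha, ih (r1 :: S) (List.mem_cons_of_mem _ hS) a9]
      show _ = q ^ ((if fx r1 then 1 else 2) + wl L) * A.d ψ (clS L (if fx r1 then r1 :: S else br r1 :: r1 :: S)) (one r0 a)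
      rw [hf, if_pos rfl, if_pos rfl, pow_add, hk, pow_one, mul_assoc]
    | false =>
      rw [hf, if_neg Bool.false_ne_true] at a9
      rw [hf] at a8
      rw [A.clearS hψ a1 hS hf0 hf a8.symm a3 a4 h127 a6 a7 ha,
        ih (br r1 :: r1 :: S) (List.mem_cons_of_mem _ (List.mem_cons_of_mem _ hS)) a9]
      show _ = q ^ ((if fx r1 then 1 else 2) + wl L) * A.d ψ (clS L (if fx r1 then r1 :: S else br r1 :: r1 :: S)) (one r0 a)
      rw [hf, if_neg Bool.false_ne_true, if_neg Bool.false_ne_true, pow_add, hK, mul_assoc]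

/-- weights supported at two roots -/
def two (r r' : ℕ) (a b : k) : ℕ → k := fun x => if x = r then a else if x = r' then b else 0

theorem two_swap {r r' : ℕ} (h : r ≠ r') (a b : k) : two r r' a b = two r' r b a := by
  funext x
  unfold two
  by_cases h1 : x = r
  · subst h1; rw [if_pos rfl, if_neg h, if_pos rfl]
  · by_cases h2 : x = r'
    · subst h2; rw [if_neg h1, if_pos rfl, if_pos rfl]
    · rw [if_neg h1, if_neg h2, if_neg h2, if_neg h1]

/-- condition for a shift of the coordinate `r` by the coordinate `r'` -/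
def okp (R : List ℕ) (r r' s : ℕ) : Bool := Nat.blt s 72 && Nat.blt r 72 && fx s && fx r && fx r' && sm r s == r' && !(s == r) &&
  !(r' == 127) && !(r == r') && !(s == 71 - r) &&
  (r' :: R).all fun x => Nat.blt x 72 && !(s == 71 - x) && !(s == 71 - br x) && !(x == r) && (cm x s).all fun c => R.contains c && !(c == r) && !(c == r')

theorem okp_le {R : List ℕ} {r r' s : ℕ} (h : okp R r r' s = true) {b : k} (hb : b ≠ 0) (a a' : k) :
    A.d ψ (r :: r' :: R) (two r r' a b) ≤ A.d ψ (r :: r' :: R) (two r r' a' b) := by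
  unfold okp at h
  simp only [Bool.and_eq_true, beq_iff_eq, Bool.not_eq_true', beq_eq_false_iff_ne, List.all_eq_true, Nat.blt_eq, List.contains_iff_mem] at h
  obtain ⟨⟨⟨⟨⟨⟨⟨⟨⟨⟨h1, h2⟩, h3⟩, h4⟩, h5⟩, h6⟩, h7⟩, h8⟩, h9⟩, h10⟩, h11⟩ := h
  have hsm : sm r s ≠ 127 := by rw [h6]; exact h8
  have hC := A.C_ne r s h2 h1 h4 h3 h7 h10 hsm
  refine le_of_map (A.TL s ((a' - a) / (A.C r s * b))) (A.TL_inj h1 h3 _) fun v hv => ?_
  intro x hx
  rcases List.mem_cons.1 hx with rfl | hx2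
  · refine ⟨fun _ t => ?_, fun h => by rw [h4] at h; exact Bool.noConfusion h⟩
    have hv1 := (hv x List.mem_cons_self).1 h4
    have hv2 := (hv r' (List.mem_cons_of_mem _ List.mem_cons_self)).1 h5
    have e1 : two x r' a b x = a := if_pos rfl
    have e2 : two x r' a b r' = b := by unfold two; rw [if_neg (Ne.symm h9), if_pos rfl]
    have e3 : two x r' a' b x = a' := if_pos rfl
    rw [A.shiftLL x s h2 h1 h4 h3 h7 h10 hsm, h6, hv2, map_smul, map_smul, hv1, map_smul, smul_smul, ← AddChar.map_add_eq_mul, e1, e2, e3]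
    congr 2
    field_simp
    ring
  · obtain ⟨⟨⟨⟨k1, k2⟩, k3⟩, k4⟩, k5⟩ := h11 x hx2
    have h12 := A.op_comm k1 h1 k2 k3 (v := v) (fun c hc => ?_) (A.TL_Op h3 ((a' - a) / (A.C r s * b)))
    · have hxr : two r r' a b x = two r r' a' b x := by
        unfold two
        rw [if_neg k4, if_neg k4]
      have h13 := hv x hx
      refine ⟨fun hf t => ?_, fun hf t => ?_⟩
      · rw [h12.1 hf, h13.1 hf, map_smul, hxr]
      · rw [h12.2 hf, h13.2 hf]
    · obtain ⟨⟨m1, m2⟩, m3⟩ := k5 c hc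
      have h14 := hv c (List.mem_cons_of_mem _ (List.mem_cons_of_mem _ m1))
      refine ⟨fun hf t => ?_, h14.2⟩
      have e : two r r' a b c = 0 := by unfold two; rw [if_neg m2, if_neg m3]
      rw [h14.1 hf, e, zero_mul, AddChar.map_zero_eq_one, one_smul]

theorem pair_const {R : List ℕ} {r r' s s' : ℕ} (h : okp R r r' s = true) (h' : okp R r' r s' = true) {a b a' b' : k}
    (h1 : a ≠ 0 ∨ b ≠ 0) (h2 : a' ≠ 0 ∨ b' ≠ 0) :
    A.d ψ (r :: r' :: R) (two r r' a b) = A.d ψ (r :: r' :: R) (two r r' a' b') := by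
  have hne : r ≠ r' := by
    unfold okp at h
    simp only [Bool.and_eq_true, beq_iff_eq, Bool.not_eq_true', beq_eq_false_iff_ne] at h
    exact h.1.1.2
  have hsw : ∀ a b : k, A.d ψ (r :: r' :: R) (two r r' a b) = A.d ψ (r' :: r :: R) (two r' r b a) := by
    intro a b
    rw [two_swap hne, A.d_perm ψ (S' := r' :: r :: R)]
    intro x
    simp only [List.mem_cons]
    tauto
  have k1 : ∀ a a' b : k, b ≠ 0 → A.d ψ (r :: r' :: R) (two r r' a b) = A.d ψ (r :: r' :: R) (two r r' a' b) :=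
    fun a a' b hb => le_antisymm (A.okp_le h hb a a') (A.okp_le h hb a' a)
  have k2 : ∀ a b b' : k, a ≠ 0 → A.d ψ (r :: r' :: R) (two r r' a b) = A.d ψ (r :: r' :: R) (two r r' a b') := by
    intro a b b' ha
    rw [hsw, hsw a b']
    exact le_antisymm (A.okp_le h' ha b b') (A.okp_le h' ha b' b)
  have key : ∀ a b : k, (a ≠ 0 ∨ b ≠ 0) → A.d ψ (r :: r' :: R) (two r r' a b) = A.d ψ (r :: r' :: R) (two r r' 1 1) := by
    intro a b hab
    by_cases hb : b = 0
    · have ha : a ≠ 0 := by tauto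
      rw [k2 a b 1 ha, k1 a 1 1 one_ne_zero]
    · rw [k1 a 1 b hb, k2 1 b 1 one_ne_zero]
  rw [key a b h1, key a' b' h2]

/-- all conditions for a pair of roots -/
def okPair (R : List ℕ) (r r' s : ℕ) : Bool :=
  okp R r r' s && okp R r' r (71 - s) && pres (r' :: R) r' r && pres (r :: R) r r' && !(R.contains r) && !(R.contains r') && fx r && fx r'

theorem pair_R (hψ : ψ ≠ 0) {R : List ℕ} {r r' s : ℕ} (h : okPair R r r' s = true) :
    ∃ m : ℕ, (∀ a : k, a ≠ 0 → A.d ψ (r :: R) (one r a) = Fintype.card k * m) ∧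
      (∀ b : k, b ≠ 0 → A.d ψ (r' :: R) (one r' b) = Fintype.card k * m) ∧
      ∀ a b : k, (a ≠ 0 ∨ b ≠ 0) → A.d ψ (r :: r' :: R) (two r r' a b) = m := by
  classical
  unfold okPair at h
  simp only [Bool.and_eq_true, Bool.not_eq_true'] at h
  obtain ⟨⟨⟨⟨⟨⟨⟨h1, h2⟩, h3⟩, h4⟩, h5⟩, h6⟩, hf⟩, hf'⟩ := h
  have h5 := not_contains h5
  have h6 := not_contains h6
  have hne : r ≠ r' := by
    unfold okp at h1
    simp only [Bool.and_eq_true, beq_iff_eq, Bool.not_eq_true', beq_eq_false_iff_ne] at h1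
    exact h1.1.1.2
  refine ⟨A.d ψ (r :: r' :: R) (two r r' 1 1), fun a ha => ?_, fun b hb => ?_, fun a b hab =>
    A.pair_const h1 h2 hab (Or.inl one_ne_zero)⟩
  · rw [A.splitL_one hψ h4 hf' (by rw [List.mem_cons]; rintro (e | e); exact hne e.symm; exact h6 e)]
    rw [Finset.sum_congr rfl (g := fun _ => A.d ψ (r :: r' :: R) (two r r' 1 1)), Finset.sum_const, Finset.card_univ, smul_eq_mul]
    intro b _
    rw [← A.pair_const h1 h2 (a := a) (b := b) (Or.inl ha) (Or.inl one_ne_zero)]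
    unfold d
    rw [A.W_perm ψ (S' := r :: r' :: R) (by intro x; simp only [List.mem_cons]; tauto), A.W_congr ψ (c' := two r r' a b)]
    intro x _ _
    unfold two one
    by_cases e1 : x = r'
    · subst e1
      rw [Function.update_self, if_neg (Ne.symm hne), if_pos rfl]
    · rw [Function.update_of_ne e1, if_neg e1]
  · rw [A.splitL_one hψ h3 hf (by rw [List.mem_cons]; rintro (e | e); exact hne e; exact h5 e)]
    rw [Finset.sum_congr rfl (g := fun _ => A.d ψ (r :: r' :: R) (two r r' 1 1)), Finset.sum_const, Finset.card_univ, smul_eq_mul]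
    intro a _
    rw [← A.pair_const h1 h2 (a := a) (b := b) (Or.inr hb) (Or.inl one_ne_zero)]
    unfold d
    rw [A.W_congr ψ (c' := two r r' a b)]
    intro x _ _
    unfold two one
    by_cases e1 : x = r
    · subst e1
      rw [Function.update_self, if_pos rfl]
    · rw [Function.update_of_ne e1, if_neg e1]

theorem update_zero_one {r : ℕ} (a : k) : Function.update (fun _ : ℕ => (0 : k)) r a = one r a := by
  funext x
  unfold one
  by_cases e : x = r
  · subst e; rw [Function.update_self, if_pos rfl]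
  · rw [Function.update_of_ne e, if_neg e]

/-- peeling off one long root -/
theorem peel (hψ : ψ ≠ 0) {S : List ℕ} {r : ℕ} (h : pres S 100 r = true) (hf : fx r = true) (hr : r ∉ S) {n : ℕ}
    (hn : ∀ a : k, a ≠ 0 → n ≤ A.d ψ (r :: S) (one r a)) :
    A.d ψ (r :: S) (fun _ => 0) + (Fintype.card k - 1) * n ≤ A.d ψ S (fun _ => 0) := by
  classical
  have h1 := A.splitL_one hψ h hf hr 0
  rw [one_zero] at h1
  rw [h1, ← Finset.add_sum_erase _ _ (Finset.mem_univ (0 : k)), update_zero_one, one_zero]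
  refine Nat.add_le_add_left ?_ _
  calc (Fintype.card k - 1) * n = ∑ a ∈ Finset.univ.erase (0 : k), n := by
        rw [Finset.sum_const, Finset.card_erase_of_mem (Finset.mem_univ _), Finset.card_univ, smul_eq_mul]
    _ ≤ _ := Finset.sum_le_sum fun a ha => by rw [update_zero_one]; exact hn a (Finset.ne_of_mem_erase ha)

/-- exact peeling -/
theorem peel_eq (hψ : ψ ≠ 0) {S : List ℕ} {r : ℕ} (h : pres S 100 r = true) (hf : fx r = true) (hr : r ∉ S) {n : ℕ}
    (hn : ∀ a : k, a ≠ 0 → A.d ψ (r :: S) (one r a) = n) :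
    A.d ψ (r :: S) (fun _ => 0) + (Fintype.card k - 1) * n = A.d ψ S (fun _ => 0) := by
  classical
  have h1 := A.splitL_one hψ h hf hr 0
  rw [one_zero] at h1
  rw [h1, ← Finset.add_sum_erase _ _ (Finset.mem_univ (0 : k)), update_zero_one, one_zero]
  congr 1
  rw [Finset.sum_congr rfl (g := fun _ => n) fun a ha => by rw [update_zero_one]; exact hn a (Finset.ne_of_mem_erase ha),
    Finset.sum_const, Finset.card_erase_of_mem (Finset.mem_univ _), Finset.card_univ, smul_eq_mul]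

theorem d_nil : A.d ψ [] (fun _ => 0) = finrank ℂ V := by
  unfold d
  have : A.W ψ [] (fun _ => (0 : k)) = ⊤ := by
    rw [eq_top_iff]
    intro v _ r hr
    exact absurd hr (List.not_mem_nil)
  rw [this, finrank_top]

/-- commutators act trivially on one-dimensional invariant spaces -/
theorem scal {W0 : Submodule ℂ V} (hd : finrank ℂ W0 = 1) {g : V →ₗ[ℂ] V} (hg : ∀ v ∈ W0, g v ∈ W0) :
    ∃ α : ℂ, ∀ w ∈ W0, g w = α • w := by
  obtain ⟨v0, hv0, hgen⟩ := finrank_eq_one_iff'.1 hd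
  obtain ⟨α, hα⟩ := hgen ⟨g v0, hg _ v0.2⟩
  refine ⟨α, fun w hw => ?_⟩
  obtain ⟨β, hβ⟩ := hgen ⟨w, hw⟩
  have e1 : g v0 = α • (v0 : V) := (congrArg Subtype.val hα).symm
  have e2 : w = β • (v0 : V) := (congrArg Subtype.val hβ).symm
  rw [e2, map_smul, e1, smul_comm]

theorem trivC {W0 : Submodule ℂ V} (hd : finrank ℂ W0 = 1) {g h x : V →ₗ[ℂ] V} (hg : ∀ v ∈ W0, g v ∈ W0) (hh : ∀ v ∈ W0, h v ∈ W0)
    (hgi : Function.Injective g) (hhi : Function.Injective h) {v : V} (hv : v ∈ W0) (hx : g (h v) = h (g (x v))) : x v = v := by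
  obtain ⟨α, hα⟩ := scal hd hg
  obtain ⟨β, hβ⟩ := scal hd hh
  have h4 : g (h v) = h (g v) := by
    rw [hβ v hv, map_smul, hα v hv, map_smul, hβ v hv, smul_comm]
  rw [h4] at hx
  exact (hgi (hhi hx)).symm

/-- list of commutators acting trivially -/
def trv2 (S S' : List ℕ) (r0 : ℕ) (L : List (ℕ × ℕ)) : Bool := L.all fun p =>
  pres2 S S' r0 p.1 && pres2 S S' r0 p.2 && !(p.2 == p.1) && !(p.2 == 71 - p.1) && !(p.2 == 71 - br p.1) && !(sm p.1 p.2 == 127) &&
    !(sm p.1 p.2 == r0) && (fx p.1 == fx p.2) && (!(fx p.1) || fx (sm p.1 p.2))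

theorem triv_list2 {S S' : List ℕ} {r0 : ℕ} {a : k} (hd : A.d ψ S (one r0 a) = 1) (hW : A.W ψ S (one r0 a) ≤ A.W ψ S' (one r0 a))
    {L : List (ℕ × ℕ)} (h : trv2 S S' r0 L = true) :
    A.W ψ S (one r0 a) ≤ A.W ψ (L.map (fun p => sm p.1 p.2) ++ S') (one r0 a) := by
  unfold trv2 at h
  rw [List.all_eq_true] at h
  intro v hv r hr
  rcases List.mem_append.1 hr with hr | hr
  · obtain ⟨p, hp, rfl⟩ := List.mem_map.1 hr
    obtain ⟨s1, s2⟩ := p
    have h1 := h _ hp
    simp only [Bool.and_eq_true, Bool.not_eq_true', beq_eq_false_iff_ne, Bool.or_eq_true, beq_iff_eq] at h1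
    obtain ⟨⟨⟨⟨⟨⟨⟨⟨h1, h2⟩, h3⟩, h4⟩, h5⟩, h6⟩, h7⟩, h8⟩, h9⟩ := h1
    have l1 := lt_of_pres2 h1
    have l2 := lt_of_pres2 h2
    have p1 : ∀ g ∈ A.Op s1, ∀ v ∈ A.W ψ S (one r0 a), g v ∈ A.W ψ S (one r0 a) := fun g hg v hv => A.mem_pres2 ψ h1 hW hv hg
    have p2 : ∀ g ∈ A.Op s2, ∀ v ∈ A.W ψ S (one r0 a), g v ∈ A.W ψ S (one r0 a) := fun g hg v hv => A.mem_pres2 ψ h2 hW hv hg
    cases hf1 : fx s1 with
    | true =>
      rw [hf1] at h8 h9
      have hf2 : fx s2 = true := h8.symm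
      have hf3 : fx (sm s1 s2) = true := by
        rcases h9 with h9 | h9
        · exact Bool.noConfusion h9
        · exact h9
      refine ⟨fun _ t => ?_, fun hh => by rw [hf3] at hh; exact Bool.noConfusion hh⟩
      have hC := A.C_ne s1 s2 l1 l2 hf1 hf2 h3 h4 h6
      have h10 := A.shiftLL s1 s2 l1 l2 hf1 hf2 h3 h4 h6 (t / A.C s1 s2) 1 v
      have e : A.C s1 s2 * (t / A.C s1 s2) * 1 = t := by field_simp
      rw [e] at h10
      rw [one_ne h7, zero_mul, AddChar.map_zero_eq_one, one_smul]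
      exact trivC hd (p1 _ (A.TL_Op hf1 _)) (p2 _ (A.TL_Op hf2 _)) (A.TL_inj l1 hf1 _) (A.TL_inj l2 hf2 _) hv h10
    | false =>
      rw [hf1] at h8
      have hf2 : fx s2 = false := h8.symm
      cases hf3 : fx (sm s1 s2) with
      | true =>
        refine ⟨fun _ t => ?_, fun hh => Bool.noConfusion hh⟩
        obtain ⟨x, hx⟩ := A.B_surj s1 s2 l1 l2 hf1 hf2 h4 h5 h6 hf3 1 one_ne_zero t
        have h10 := A.shiftSS s1 s2 l1 l2 hf1 hf2 h4 h5 h6 hf3 x 1 v
        rw [hx] at h10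
        rw [one_ne h7, zero_mul, AddChar.map_zero_eq_one, one_smul]
        exact trivC hd (p1 _ (A.TS_Op hf1 _)) (p2 _ (A.TS_Op hf2 _)) (A.TS_inj l1 hf1 _) (A.TS_inj l2 hf2 _) hv h10
      | false =>
        refine ⟨fun hh => Bool.noConfusion hh, fun _ t => ?_⟩
        have hD := A.D_ne s1 s2 l1 l2 hf1 hf2 h4 h5 h6 hf3
        have h10 := A.shiftSK s1 s2 l1 l2 hf1 hf2 h4 h5 h6 hf3 (t / A.D s1 s2) 1 v
        have e : A.D s1 s2 * (t / A.D s1 s2) * 1 = t := by field_simp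
        rw [e] at h10
        exact trivC hd (p1 _ (A.TS_Op hf1 _)) (p2 _ (A.TS_Op hf2 _)) (A.TS_inj l1 hf1 _) (A.TS_inj l2 hf2 _) hv h10
  · exact hW hv r hr

/-- reflections -/
theorem refl2 {i r r' : ℕ} {S S' : List ℕ} (hi : i < 4) (hr' : r' < 72) (hfr' : fx r' = true) (hfr : fx r = true) (hr : r = wi i r')
    (hS : ∀ x ∈ S, wi i x < 72 ∧ wi i x ∈ S' ∧ wi i (wi i x) = x ∧ x ≠ r ∧ wi i x ≠ r' ∧ fx (wi i x) = fx x)
    (H : ∀ a : k, a ≠ 0 → 1 ≤ A.d ψ (r' :: S') (one r' a)) {a : k} (ha : a ≠ 0) :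
    1 ≤ A.d ψ (r :: S) (one r a) := by
  obtain ⟨N, hN⟩ := A.refl i hi
  obtain ⟨η, hη, hN2⟩ := (hN r' hr').1 hfr'
  refine (H (a * η) (mul_ne_zero ha hη)).trans (le_of_map (N : V →ₗ[ℂ] V) N.injective fun v hv => ?_)
  rw [mem_W_cons] at hv ⊢
  refine ⟨⟨fun _ t => ?_, fun hh => by rw [hfr] at hh; exact Bool.noConfusion hh⟩, fun x hx => ?_⟩
  · have h1 := hN2 (η⁻¹ * t) v
    rw [mul_inv_cancel_left₀ hη, hv.1.1 hfr', one_self, map_smul, ← hr] at h1
    show A.TL r t (N v) = _ • N v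
    rw [← h1, one_self]
    congr 2
    field_simp
  · obtain ⟨k1, k2, k3, k4, k5, k6⟩ := hS x hx
    refine ⟨fun hf t => ?_, fun hf t => ?_⟩
    · rw [← k6] at hf
      obtain ⟨η', hη', hN3⟩ := (hN (wi i x) k1).1 hf
      have h1 := hN3 (η'⁻¹ * t) v
      rw [mul_inv_cancel_left₀ hη', (hv.2 _ k2).1 hf, one_ne k5, zero_mul, AddChar.map_zero_eq_one, one_smul, k3] at h1
      show A.TL x t (N v) = _ • N v
      rw [← h1, one_ne k4, zero_mul, AddChar.map_zero_eq_one, one_smul]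
    · rw [← k6] at hf
      have h1 := (hN (wi i x) k1).2 hf v ((hv.2 _ k2).2 hf) t
      rw [k3] at h1
      exact h1

end ActT

end Cfsg.Agent.E6Tw
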