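import Cfsg.Agent.E6Tw.Rel

set_option autoImplicit false
set_option maxRecDepth 100000

/-!
# The root elements are in the twisted group of type E6 (helper98)
-/

namespace Cfsg.Agent.E6Tw

open Module Cfsg.Lie Cfsg.Agent.ChevU Cfsg.Agent.E6Min Cfsg.Agent.ChevTw Cfsg.Agent.ChevGrp
open Cfsg.Agent.Chev (gs wb wv gpE6_1 xG eq_xG)

variable {K : Type*} [Field K]

theorem el_eq_xG {r : ℕ} (hr : r < 72) (t : K) : el r t = xG goodE6.toGood2 r t := by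
  apply eq_xG
  rw [coe_el hr]
  rfl

variable (φ : K ≃+* K)

theorem sE6_el {r : ℕ} (hr : r < 72) (t : K) : sE6 goodE6 φ (el r t) = el (br r) (ep K r * φ t) := by
  obtain ⟨h1, h2, -, -, -, -⟩ := br_facts hr
  have hr' : r < chevE6.nroots := hr
  rw [el_eq_xG hr, el_eq_xG h2]
  unfold sE6
  rw [sgm_xG goodE6 _ _ _ φ hr', h1]
  rfl

theorem sE6_ys (hφφ : ∀ t, φ (φ t) = t) {r : ℕ} (hr : r < 72) (t : K) (ht : fx r = true → φ t = t) :
    sE6 goodE6 φ (ys φ r t) = ys φ r t := by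
  obtain ⟨h1, h2, h3, -, -, -⟩ := br_facts hr
  rcases hf : fx r with _ | _
  · rw [ys_nf φ hf, map_mul, sE6_el φ hr, sE6_el φ h2, h3, ep_br hr, map_mul, hφφ, ep_fix, ← mul_assoc (ep K r),
      ep_sq hr, one_mul, el_br_comm hr]
  · rw [ys_fx φ hf, sE6_el φ hr, br_fx hf, ep_fx hr hf, one_mul, ht hf]

theorem ys_mem (hφφ : ∀ t, φ (φ t) = t) {q : ℕ} (hφ : ∀ t : K, φ t = t ^ q) {r : ℕ} (hr : r < 72) (t : K)
    (ht : fx r = true → φ t = t) : ((ys φ r t : chevE6.group K) : GL chevE6.Idx K) ∈ twistedE6 K q := by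
  obtain ⟨h1, h2, h3, -, -, -⟩ := br_facts hr
  have key : ys φ r t ∈ (iE6 DData.dF4 (instE6 K) φ hφφ hφ).T.G1 := by
    refine TwData.X'_le_G1 (clsE6 ⟨r, hr⟩) ((TwData.mem_X' _).2 ⟨?_, sE6_ys φ hφφ hr t ht⟩)
    have m1 : ∀ u : K, el r u ∈ (instE6 K).R.X (⟨r, hr⟩ : Fin chevE6.nroots) := fun u =>
      ((instE6 K).mem_X (⟨r, hr⟩ : Fin chevE6.nroots) _).2 ⟨u, el_eq_xG hr u⟩
    have m2 : ∀ u : K, el (br r) u ∈ (instE6 K).R.X (⟨br r, h2⟩ : Fin chevE6.nroots) := fun u =>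
      ((instE6 K).mem_X (⟨br r, h2⟩ : Fin chevE6.nroots) _).2 ⟨u, el_eq_xG h2 u⟩
    have c1 : clsE6 (⟨br r, h2⟩ : Fin chevE6.nroots) = clsE6 ⟨r, hr⟩ := by
      apply Fin.ext
      show cE6 (br r) = cE6 r
      rw [← h1]
      exact cE6_rho r hr
    have g1 : ∀ u : K, el r u ∈ gen (instE6 K).R.X (fun s => clsE6 s = clsE6 (⟨r, hr⟩ : Fin chevE6.nroots)) := fun u =>
      mem_gen (X := (instE6 K).R.X) (P := fun s => clsE6 s = clsE6 (⟨r, hr⟩ : Fin chevE6.nroots)) rfl (m1 u)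
    have g2 : ∀ u : K, el (br r) u ∈ gen (instE6 K).R.X (fun s => clsE6 s = clsE6 (⟨r, hr⟩ : Fin chevE6.nroots)) := fun u =>
      mem_gen (X := (instE6 K).R.X) (P := fun s => clsE6 s = clsE6 (⟨r, hr⟩ : Fin chevE6.nroots)) c1 (m2 u)
    rcases hf : fx r with _ | _
    · rw [ys_nf φ hf]
      exact mul_mem (g1 _) (g2 _)
    · rw [ys_fx φ hf]
      exact g1 _
  exact key

end Cfsg.Agent.E6Tw
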