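import Cfsg.Agent.E6Tw.Mem
import Cfsg.Agent.S1070

set_option autoImplicit false

/-!
# The action of the twisted group of type E6 on a representation (helper98)
-/

namespace Cfsg.Agent.E6Tw

open Module Cfsg.Lie Cfsg.Agent.ChevU Cfsg.Agent.E6Min

variable {K : Type*} [Field K]

/-- the fixed field -/
def kf (φ : K ≃+* K) : Subfield K where
  carrier := {x | φ x = x}
  mul_mem' := by intro a b ha hb; change φ (a * b) = a * b; rw [map_mul, show φ a = a from ha, show φ b = b from hb]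
  one_mem' := map_one φ
  add_mem' := by intro a b ha hb; change φ (a + b) = a + b; rw [map_add, show φ a = a from ha, show φ b = b from hb]
  zero_mem' := map_zero φ
  neg_mem' := by intro a ha; change φ (-a) = -a; rw [map_neg, show φ a = a from ha]
  inv_mem' := by intro a ha; change φ (a⁻¹) = a⁻¹; rw [map_inv₀, show φ a = a from ha]

variable {φ : K ≃+* K}

theorem kf_fix (a : kf φ) : φ (a : K) = a := a.2

theorem mem_kf {x : K} : x ∈ kf φ ↔ φ x = x := Iff.rfl

theorem card_kf [Fintype K] {q : ℕ} (hq : 1 < q) (hK : Fintype.card K = q ^ 2) (hφ : ∀ t : K, φ t = t ^ q) :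
    Nat.card (kf φ) = q := by
  rw [← Cfsg.Agent.ChevTw.card_fixed (K := K) hq two_ne_zero hK]
  exact Nat.card_congr (Equiv.subtypeEquivRight fun c => by rw [mem_kf, hφ])

theorem exists_ne_fix [Fintype K] {q : ℕ} (hq : 1 < q) (hK : Fintype.card K = q ^ 2) (hφ : ∀ t : K, φ t = t ^ q) :
    ∃ z, φ z ≠ z := by
  by_contra hcon
  push Not at hcon
  have h1 := card_kf hq hK hφ
  have h2 : Nat.card (kf φ) = Nat.card K := Nat.card_congr (Equiv.subtypeUnivEquiv hcon)
  rw [h2, Nat.card_eq_fintype_card, hK] at h1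
  have h3 : q ^ 2 = q * q := by ring
  have h4 : q * 1 < q * q := Nat.mul_lt_mul_of_pos_left hq (by omega)
  omega

theorem ys_add {r : ℕ} (hr : r < 72) (s t : K) : ys φ r (s + t) = ys φ r s * ys φ r t := by
  obtain ⟨-, h2, -, -, -, -⟩ := br_facts hr
  rcases hf : fx r with _ | _
  · rw [ys_nf φ hf, ys_nf φ hf, ys_nf φ hf, map_add, mul_add, el_add hr, el_add h2]
    calc el r s * el r t * (el (br r) (ep K r * φ s) * el (br r) (ep K r * φ t))
        = el r s * (el r t * el (br r) (ep K r * φ s)) * el (br r) (ep K r * φ t) := by group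
      _ = el r s * (el (br r) (ep K r * φ s) * el r t) * el (br r) (ep K r * φ t) := by rw [el_br_comm hr]
      _ = _ := by group
  · rw [ys_fx φ hf, ys_fx φ hf, ys_fx φ hf, el_add hr]

theorem ys_zero {r : ℕ} (hr : r < 72) : ys φ r (0 : K) = 1 := by
  have h := ys_add (φ := φ) hr (0 : K) 0
  rw [add_zero] at h
  exact (mul_eq_left.1 h.symm)

section act

variable (hφφ : ∀ t, φ (φ t) = t) {q : ℕ} (hφ : ∀ t : K, φ t = t ^ q)

/-- the root elements as elements of the twisted group -/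
noncomputable def yt (r : ℕ) (t : K) : twistedE6 K q := by
  classical
  exact if h : r < 72 ∧ (fx r = true → φ t = t) then ⟨_, ys_mem φ hφφ hφ h.1 t h.2⟩ else 1

theorem coe_yt {r : ℕ} (hr : r < 72) {t : K} (ht : fx r = true → φ t = t) :
    ((yt hφφ hφ r t : twistedE6 K q) : GL chevE6.Idx K) = ((ys φ r t : chevE6.group K) : GL chevE6.Idx K) := by
  unfold yt
  rw [dif_pos ⟨hr, ht⟩]

/-- transfer of equalities -/
theorem yt_add {r : ℕ} (hr : r < 72) {s t : K} (hs : fx r = true → φ s = s) (ht : fx r = true → φ t = t) :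
    yt hφφ hφ r (s + t) = yt hφφ hφ r s * yt hφφ hφ r t := by
  apply Subtype.ext
  rw [Subgroup.coe_mul, coe_yt hφφ hφ hr hs, coe_yt hφφ hφ hr ht, coe_yt hφφ hφ hr (fun h => by rw [map_add, hs h, ht h]),
    ys_add hr]
  rfl

theorem yt_zero {r : ℕ} (hr : r < 72) : yt hφφ hφ r 0 = 1 := by
  apply Subtype.ext
  rw [coe_yt hφφ hφ hr (fun _ => map_zero φ), ys_zero hr]
  rfl

theorem yt_br {r : ℕ} (hr : r < 72) (hf : fx r = false) (t : K) :
    yt hφφ hφ (br r) t = yt hφφ hφ r (ep K r * φ t) := by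
  have hb := (br_facts hr).2.1
  have hfb := fx_br hr hf
  apply Subtype.ext
  rw [coe_yt hφφ hφ hb (by rw [hfb]; exact fun h => absurd h (by decide)),
    coe_yt hφφ hφ hr (by rw [hf]; exact fun h => absurd h (by decide)), ← ys_br φ hφφ hr hf]
  congr 2
  rw [map_mul, hφφ, ep_fix, ← mul_assoc, ep_sq hr, one_mul]

theorem yt_rel {r s c : ℕ} (hr : r < 72) (hs : s < 72) (hc : c < 72) {t u z : K} (ht : fx r = true → φ t = t)
    (hu : fx s = true → φ u = u) (hz : fx c = true → φ z = z)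
    (h : ys φ r t * ys φ s u = ys φ s u * (ys φ r t * ys φ c z)) :
    yt hφφ hφ r t * yt hφφ hφ s u = yt hφφ hφ s u * (yt hφφ hφ r t * yt hφφ hφ c z) := by
  apply Subtype.ext
  simp only [Subgroup.coe_mul]
  rw [coe_yt hφφ hφ hr ht, coe_yt hφφ hφ hs hu, coe_yt hφφ hφ hc hz, ← Subgroup.coe_mul, ← Subgroup.coe_mul,
    ← Subgroup.coe_mul, h]

variable {V : Type*} [AddCommGroup V] [Module ℂ V] (ρ : Representation ℂ (twistedE6 K q) V)

theorem rho_mul (a b : twistedE6 K q) (v : V) : ρ (a * b) v = ρ a (ρ b v) := by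
  rw [map_mul]; rfl

/-- the stabiliser of a vector -/
def stb (v : V) : Subgroup (twistedE6 K q) where
  carrier := {g | ρ g v = v}
  one_mem' := by show ρ 1 v = v; rw [map_one]; rfl
  mul_mem' := by
    intro a b ha hb
    show ρ (a * b) v = v
    rw [rho_mul, show ρ b v = v from hb, show ρ a v = v from ha]
  inv_mem' := by
    intro a ha
    show ρ a⁻¹ v = v
    have h1 : ρ a⁻¹ (ρ a v) = v := by rw [← rho_mul, inv_mul_cancel, map_one]; rfl
    rwa [show ρ a v = v from ha] at h1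

theorem rho_comm {r s : ℕ} (hr : r < 72) (hs : s < 72) (h1 : s ≠ 71 - r) (h2 : s ≠ 71 - br r) {t u : K}
    (ht : fx r = true → φ t = t) (hu : fx s = true → φ u = u) {v : V}
    (hv : ∀ c ∈ cm r s, ∀ z : K, (fx c = true → φ z = z) → c < 72 → ρ (yt hφφ hφ c z) v = v) (hcm : ∀ c ∈ cm r s, c < 72) :
    ρ (yt hφφ hφ r t) (ρ (yt hφφ hφ s u) v) = ρ (yt hφφ hφ s u) (ρ (yt hφφ hφ r t) v) := by
  obtain ⟨w, hw, h⟩ := ys_comm φ hφφ hr hs h1 h2 t u ht hu
  have hw' : w ∈ ((stb ρ v).map (twistedE6 K q).subtype).comap (chevE6.group K).subtype := by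
    have hle : Subgroup.closure {x | ∃ c ∈ cm r s, ∃ z : K, (fx c = true → φ z = z) ∧ x = ys φ c z} ≤
        ((stb ρ v).map (twistedE6 K q).subtype).comap (chevE6.group K).subtype := by
      rw [Subgroup.closure_le]
      rintro x ⟨c, hc, z, hz, rfl⟩
      exact ⟨yt hφφ hφ c z, hv c hc z hz (hcm c hc), coe_yt hφφ hφ (hcm c hc) hz⟩
    exact hle hw
  obtain ⟨g, hg, hgw⟩ := hw'
  have e : yt hφφ hφ r t * yt hφφ hφ s u = yt hφφ hφ s u * (yt hφφ hφ r t * g) := by
    apply Subtype.ext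
    simp only [Subgroup.coe_mul]
    have hgw' : (g : GL chevE6.Idx K) = ((w : chevE6.group K) : GL chevE6.Idx K) := hgw
    rw [coe_yt hφφ hφ hr ht, coe_yt hφφ hφ hs hu, hgw', ← Subgroup.coe_mul, ← Subgroup.coe_mul, ← Subgroup.coe_mul, h]
  have h3 := congrArg (fun x => ρ x v) e
  simp only [rho_mul] at h3
  rw [show ρ g v = v from hg] at h3
  exact h3

theorem cm_lt {r s c : ℕ} (hr : r < 72) (hs : s < 72) (h : c ∈ cm r s) : c < 72 := by
  have hbr := (br_facts hr).2.1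
  have hbs := (br_facts hs).2.1
  obtain ⟨h0, (h1 | h1 | h1 | h1) | ⟨h1, h2 | h2⟩⟩ := mem_cm.1 h
  · rw [h1] at h0 ⊢; exact (sm_lt hr hs h0).1
  · rw [h1] at h0 ⊢; exact (sm_lt hr hbs h0).1
  · rw [h1] at h0 ⊢; exact (sm_lt hbr hs h0).1
  · rw [h1] at h0 ⊢; exact (sm_lt hbr hbs h0).1
  · rw [h2] at h0 ⊢; exact (sm_lt (sm_lt hr hs h1).1 hbs h0).1
  · rw [h2] at h0 ⊢; exact (sm_lt (sm_lt hr hs h1).1 hbr h0).1

theorem fx_sm {r s : ℕ} (hr : r < 72) (hs : s < 72) (h : sm r s ≠ 127) (hfr : fx r = true) (hfs : fx s = true) :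
    fx (sm r s) = true := by
  obtain ⟨hc, hbc, hb127, hne, -⟩ := sm_lt hr hs h
  unfold fx
  rw [hbc, br_fx hfr, br_fx hfs]
  exact beq_self_eq_true _

/-- the statement about the reflections -/
def ReflSt (φ : K ≃+* K) (q : ℕ) : Prop := ∀ {i : ℕ}, i < 4 → ∃ n : chevE6.group K, (n : GL chevE6.Idx K) ∈ twistedE6 K q ∧
  ∀ s, s < 72 → wi i s < 72 ∧ fx (wi i s) = fx s ∧ ∃ η : ℤ, (η = 1 ∨ η = -1) ∧
    ∀ t : K, n * ys φ s t = ys φ (wi i s) ((η : K) * t) * n

theorem nofx {P : Prop} {r : ℕ} (h : fx r = false) : fx r = true → P := by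
  rw [h]; exact fun h => absurd h (by decide)

/-- the action -/
noncomputable def mkActT (hφ1 : ∃ z, φ z ≠ z) (hrefl : ReflSt φ q) : ActT (kf φ) K V where
  TL r t := ρ (yt hφφ hφ r t)
  TS r t := ρ (yt hφφ hφ r t)
  C r s := ⟨CC K r s, CC_fix φ⟩
  B r s t u := ⟨BB φ r s t u, BB_fix φ hφφ r s t u⟩
  addL := by
    intro r hr hf s t v
    rw [Subfield.coe_add, yt_add hφφ hφ hr (fun _ => s.2) (fun _ => t.2), rho_mul]
  zeroL := by
    intro r hr hf v
    rw [Subfield.coe_zero, yt_zero hφφ hφ hr, map_one]; rfl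
  addS := by
    intro r hr hf s t v
    rw [yt_add hφφ hφ hr (nofx hf) (nofx hf), rho_mul]
  zeroS := by
    intro r hr hf v
    rw [yt_zero hφφ hφ hr, map_one]; rfl
  bar := by
    intro r hr hf v hv t
    rw [yt_br hφφ hφ hr hf]
    exact hv _
  comm := by
    intro r s hr hs h1 h2 v hv
    have hv' : ∀ c ∈ cm r s, ∀ z : K, (fx c = true → φ z = z) → c < 72 → ρ (yt hφφ hφ c z) v = v := by
      intro c hc z hz _
      rcases hf : fx c with _ | _
      · exact (hv c hc).2 hf z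
      · exact (hv c hc).1 hf ⟨z, hz hf⟩
    have hcm : ∀ c ∈ cm r s, c < 72 := fun c hc => cm_lt hr hs hc
    refine ⟨fun hr1 hs1 t u => ?_, fun hr1 hs1 t u => ?_, fun hr1 hs1 t u => ?_, fun hr1 hs1 t u => ?_⟩
    · exact rho_comm hφφ hφ ρ hr hs h1 h2 (fun _ => t.2) (fun _ => u.2) hv' hcm
    · exact rho_comm hφφ hφ ρ hr hs h1 h2 (fun _ => t.2) (nofx hs1) hv' hcm
    · exact rho_comm hφφ hφ ρ hr hs h1 h2 (nofx hr1) (fun _ => u.2) hv' hcm
    · exact rho_comm hφφ hφ ρ hr hs h1 h2 (nofx hr1) (nofx hs1) hv' hcm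
  C_ne := by
    intro r s hr hs _ _ h1 h2 h h0
    exact CC_ne (F := K) hr hs h1 h2 h (congrArg Subtype.val h0)
  shiftLL := by
    intro r s hr hs hfr hfs h1 h2 h t u v
    obtain ⟨hc, -, -, -, -⟩ := sm_lt hr hs h
    have hfc := fx_sm hr hs h hfr hfs
    have e := yt_rel hφφ hφ hr hs hc (t := (t : K)) (u := (u : K)) (z := CC K r s * t * u) (fun _ => t.2) (fun _ => u.2)
      (fun _ => by rw [map_mul, map_mul, CC_fix, kf_fix, kf_fix])
      (by rw [ys_fx φ hfr, ys_fx φ hfs, ys_fx φ hfc]; exact el_shift (F := K) hr hs h1 h2 h (t : K) (u : K))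
    have h3 := congrArg (fun x => ρ x v) e
    simp only [rho_mul] at h3
    exact h3
  shiftSS := by
    intro r s hr hs hfr hfs h1 h2 h hfc t u v
    obtain ⟨hc, -, -, -, -⟩ := sm_lt hr hs h
    have e := yt_rel hφφ hφ hr hs hc (t := t) (u := u) (z := BB φ r s t u) (nofx hfr) (nofx hfs)
      (fun _ => BB_fix φ hφφ r s t u) (ys_shiftSS φ hφφ hr hs h1 h2 h hfr hfs hfc t u)
    have h3 := congrArg (fun x => ρ x v) e
    simp only [rho_mul] at h3
    exact h3
  B_add := by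
    intro r s t t' u
    apply Subtype.ext
    rw [Subfield.coe_add]
    show BB φ r s (t + t') u = BB φ r s t u + BB φ r s t' u
    unfold BB
    rw [add_mul, map_add]; ring
  B_add' := by
    intro r s t u u'
    apply Subtype.ext
    rw [Subfield.coe_add]
    show BB φ r s t (u + u') = BB φ r s t u + BB φ r s t u'
    unfold BB
    rw [mul_add t u u', map_add]; ring
  B_surj := by
    intro r s hr hs hfr hfs h1 h2 h hfc u hu y
    obtain ⟨t, ht⟩ := BB_surj φ hφφ hφ1 hr hs h1 h2 h hfr hfs hu y.2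
    exact ⟨t, Subtype.ext ht⟩
  D r s := CC K r s
  D_ne := by
    intro r s hr hs hfr hfs h1 h2 h hfc
    exact CC_ne (F := K) hr hs (sm_lt hr hs h).2.2.2.1 h1 h
  shiftSK := by
    intro r s hr hs hfr hfs h1 h2 h hfc t u v
    obtain ⟨hc, -, -, -, -⟩ := sm_lt hr hs h
    have e := yt_rel hφφ hφ hr hs hc (t := t) (u := u) (z := CC K r s * t * u) (nofx hfr) (nofx hfs)
      (nofx hfc) (ys_shiftSK φ hφφ hr hs h1 h2 h hfr hfs hfc t u)
    have h3 := congrArg (fun x => ρ x v) e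
    simp only [rho_mul] at h3
    exact h3
  refl := by
    intro i hi
    obtain ⟨n, hn, h⟩ := hrefl hi
    obtain ⟨m, hm⟩ : ∃ m : twistedE6 K q, (m : GL chevE6.Idx K) = n := ⟨⟨n, hn⟩, rfl⟩
    have key : ∀ s, s < 72 → fx (wi i s) = fx s ∧ ∃ η : ℤ, (η = 1 ∨ η = -1) ∧ ∀ t : K, (fx s = true → φ t = t) →
        ∀ v, ρ m (ρ (yt hφφ hφ s t) v) = ρ (yt hφφ hφ (wi i s) ((η : K) * t)) (ρ m v) := by
      intro s hs
      obtain ⟨h1, h2, η, hη, h3⟩ := h s hs
      refine ⟨h2, η, hη, fun t ht v => ?_⟩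
      have e : m * yt hφφ hφ s t = yt hφφ hφ (wi i s) ((η : K) * t) * m := by
        apply Subtype.ext
        simp only [Subgroup.coe_mul]
        rw [coe_yt hφφ hφ hs ht, coe_yt hφφ hφ h1 (fun h4 => by rw [map_mul, map_intCast, ht (by rw [← h2]; exact h4)]), hm,
          ← Subgroup.coe_mul, ← Subgroup.coe_mul, h3]
      have h4 := congrArg (fun x => ρ x v) e
      simp only [rho_mul] at h4
      exact h4
    refine ⟨LinearEquiv.ofLinearMap (ρ m) (ρ m⁻¹) ?_ ?_, fun s hs => ?_⟩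
    · rw [← Module.End.mul_eq_comp, ← map_mul, mul_inv_cancel, map_one]; rfl
    · rw [← Module.End.mul_eq_comp, ← map_mul, inv_mul_cancel, map_one]; rfl
    · obtain ⟨h2, η, hη, h3⟩ := key s hs
      refine ⟨fun hf => ⟨(η : kf φ), ?_, fun t v => ?_⟩, fun hf v hv t => ?_⟩
      · rcases hη with rfl | rfl
        · rw [Int.cast_one]; exact one_ne_zero
        · rw [Int.cast_neg, Int.cast_one]; exact neg_ne_zero.2 one_ne_zero
      · have h4 := h3 t (fun _ => t.2) v
        have h5 : (((η : kf φ) * t : kf φ) : K) = (η : K) * t := by push_cast; rfl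
        show ρ m (ρ (yt hφφ hφ s t) v) = ρ (yt hφφ hφ (wi i s) (((η : kf φ) * t : kf φ) : K)) (ρ m v)
        rw [h5]
        exact h4
      · have h4 := h3 ((η : K) * t) (nofx hf) v
        rw [hv] at h4
        have h5 : (η : K) * ((η : K) * t) = t := by
          rcases hη with rfl | rfl
          · simp
          · simp
        rw [h5] at h4
        exact h4.symm

theorem mkActT_TL (hφ1 : ∃ z, φ z ≠ z) (hrefl : ReflSt φ q) (r : ℕ) (t : kf φ) :
    (mkActT hφφ hφ ρ hφ1 hrefl).TL r t = ρ (yt hφφ hφ r t) := rfl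

theorem mkActT_TS (hφ1 : ∃ z, φ z ≠ z) (hrefl : ReflSt φ q) (r : ℕ) (t : K) :
    (mkActT hφφ hφ ρ hφ1 hrefl).TS r t = ρ (yt hφφ hφ r t) := rfl

set_option maxRecDepth 100000 in
theorem fx_p2 : fx e6p2 = true := by decide

/-- trivial long root subgroups: trivial representation -/
theorem triv_of [Fintype K] (hq : IsPrimePow q) (hK : Fintype.card K = q ^ 2)
    (h : ∀ r, r < 72 → fx r = true → ∀ (t : kf φ) (v : V), ρ (yt hφφ hφ r t) v = v) : ∀ g v, ρ g v = v := by
  have hs := (Cfsg.Agent.S1070.result hq hK).1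
  have h2 : e6p2 < 72 := by decide
  have hk : yt hφφ hφ e6p2 1 ∈ MonoidHom.ker ρ := by
    rw [MonoidHom.mem_ker]
    refine LinearMap.ext fun v => ?_
    have := h e6p2 h2 fx_p2 1 v
    rw [Subfield.coe_one] at this
    rw [this]; rfl
  have hne : yt hφφ hφ e6p2 1 ≠ 1 := by
    intro h1
    have h3 : ((yt hφφ hφ e6p2 1 : twistedE6 K q) : GL chevE6.Idx K) = ((1 : twistedE6 K q) : GL chevE6.Idx K) :=
      congrArg Subtype.val h1
    rw [coe_yt hφφ hφ h2 (fun _ => map_one φ), ys_fx φ fx_p2, el_eq_xG h2] at h3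
    have h4 : Cfsg.Agent.Chev.xG Cfsg.Agent.ChevTw.goodE6.toGood2 e6p2 (1 : K) = 1 := Subtype.ext h3
    obtain ⟨-, a2, -⟩ := Cfsg.Agent.ChevTw.cc_E6
    exact one_ne_zero (Cfsg.Agent.ChevTw.xG_eq_one Cfsg.Agent.ChevTw.goodE6 (D := chevE6) h2 (by decide) (Or.inl a2) h4)
  intro g v
  rcases (hs.eq_bot_or_eq_top_of_normal (MonoidHom.ker ρ) inferInstance) with h5 | h5
  · rw [h5, Subgroup.mem_bot] at hk
    exact absurd hk hne
  · have h6 : g ∈ MonoidHom.ker ρ := by rw [h5]; trivial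
    rw [MonoidHom.mem_ker] at h6
    rw [h6]; rfl

end act

end Cfsg.Agent.E6Tw
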