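import Cfsg.Agent.E6Tw.Rel0

set_option autoImplicit false
set_option linter.unusedVariables false

/-!
# The relations between the root elements of the twisted group of type E6 (helper98)
-/

namespace Cfsg.Agent.E6Tw

open Module Cfsg.Lie Cfsg.Agent.ChevU Cfsg.Agent.E6Min
open Cfsg.Agent.Chev (gs wb wv gpE6_1)

/-! ## abstract calculations -/

theorem abs_ss {X : Type*} [Group X] {a a' b b' z z' : X} (h1 : a * b = b * (a * z)) (h2 : a' * b' = b' * (a' * z'))
    (h3 : a * b' = b' * a) (h4 : a' * b = b * a') (h5 : z * b' = b' * z) (h6 : z * a' = a' * z) :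
    (a * a') * (b * b') = (b * b') * ((a * a') * (z * z')) := by
  calc (a * a') * (b * b') = a * (a' * b) * b' := by group
    _ = (a * b) * (a' * b') := by rw [h4]; group
    _ = b * a * (z * b') * a' * z' := by rw [h1, h2]; group
    _ = b * (a * b') * (z * a') * z' := by rw [h5]; group
    _ = (b * b') * ((a * a') * (z * z')) := by rw [h3, h6]; group

theorem abs_ls {X : Type*} [Group X] {a b b' z w d : X} (h1 : a * b = b * (a * z)) (h2 : a * b' = b' * (a * w))
    (h3 : z * b' = b' * (z * d)) : a * (b * b') = (b * b') * (a * ((w * z) * d)) := by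
  calc a * (b * b') = (a * b) * b' := by group
    _ = b * a * (z * b') := by rw [h1]; group
    _ = b * (a * b') * z * d := by rw [h3]; group
    _ = (b * b') * (a * ((w * z) * d)) := by rw [h2]; group

/-! ## tables -/

/-- commuting root groups -/
def co (a b : ℕ) : Bool := (sm a b == 127) && !(b == 71 - a)

/-- the sign of the structure constant -/
def sg0 (r s : ℕ) : ℤ := ((chevE6.commTerms r s).headD (0, 0, 0, 0)).2.1

/-- the sign of the graph automorphism -/
def ei (r : ℕ) : ℤ := if wb gpE6_1 r = 0 then 1 else -1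

def chkA (r : ℕ) : Bool := (sm r r == 127) && (sm r (br r) == 127) && !(br r == 71 - r) && (br (71 - r) == 71 - br r)

set_option maxRecDepth 100000 in
theorem chkA_all : ((List.range 72).all chkA) = true := by decide +kernel

def chkB (r s : ℕ) : Bool :=
  (sm s r == sm r s) &&
  (if sm r s == 127 then sm (br r) (br s) == 127
   else Nat.blt (sm r s) 72 && (br (sm r s) == sm (br r) (br s)) && !(sm (br r) (br s) == 127) && !(s == r) && !(s == 71 - r) &&
     (if fx r then
        (if fx s then true else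
          !(fx (sm r s)) && !(sm (sm r s) (br s) == 127) && fx (sm (sm r s) (br s)) && !(br s == sm r s) && !(br s == 71 - sm r s))
      else
        (if fx s then true else (sm r (br s) == 127) && co (sm r s) (br s) && co (sm r s) (br r))))

set_option maxRecDepth 100000 in
theorem chkB_all : ((List.range 72).all fun r => (List.range 72).all fun s => chkB r s) = true := by decide +kernel

def chkC (r s : ℕ) : Bool := (sm r s == 127) || (s == r) || (s == 71 - r) || (sg0 (br r) (br s) * ei r * ei s == ei (sm r s) * sg0 r s)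

set_option maxRecDepth 100000 in
theorem chkC_all : ((List.range 72).all fun r => (List.range 72).all fun s => chkC r s) = true := by decide +kernel

theorem sm_self {r : ℕ} (h : r < 72) : sm r r = 127 ∧ sm r (br r) = 127 ∧ br r ≠ 71 - r ∧ br (71 - r) = 71 - br r := by
  have h1 := List.all_eq_true.1 chkA_all r (List.mem_range.2 h)
  unfold chkA at h1
  simp only [Bool.and_eq_true, beq_iff_eq, Bool.not_eq_true'] at h1
  obtain ⟨⟨⟨a, b⟩, c⟩, d⟩ := h1
  exact ⟨a, b, by simpa using c, d⟩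

theorem chkB_of {r s : ℕ} (hr : r < 72) (hs : s < 72) : chkB r s = true :=
  List.all_eq_true.1 (List.all_eq_true.1 chkB_all r (List.mem_range.2 hr)) s (List.mem_range.2 hs)

theorem sm_symm {r s : ℕ} (hr : r < 72) (hs : s < 72) : sm s r = sm r s := by
  have h := chkB_of hr hs
  unfold chkB at h
  rw [Bool.and_eq_true, beq_iff_eq] at h
  exact h.1

theorem sm_br_none {r s : ℕ} (hr : r < 72) (hs : s < 72) (h : sm r s = 127) : sm (br r) (br s) = 127 := by
  have h1 := chkB_of hr hs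
  unfold chkB at h1
  rw [Bool.and_eq_true, if_pos (by rw [h]; rfl)] at h1
  exact beq_iff_eq.1 h1.2

theorem sm_lt {r s : ℕ} (hr : r < 72) (hs : s < 72) (h : sm r s ≠ 127) : sm r s < 72 ∧ br (sm r s) = sm (br r) (br s) ∧
    sm (br r) (br s) ≠ 127 ∧ s ≠ r ∧ s ≠ 71 - r := by
  have h1 := chkB_of hr hs
  unfold chkB at h1
  rw [Bool.and_eq_true, if_neg (by simpa using h)] at h1
  have h2 := h1.2
  rw [Bool.and_eq_true] at h2
  have h3 := h2.1
  simp only [Bool.and_eq_true, beq_iff_eq, Nat.blt_eq, Bool.not_eq_true', beq_eq_false_iff_ne] at h3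
  obtain ⟨⟨⟨⟨a, b⟩, c⟩, d⟩, e⟩ := h3
  exact ⟨a, b, c, d, e⟩

theorem sm_ls {r s : ℕ} (hr : r < 72) (hs : s < 72) (h : sm r s ≠ 127) (hfr : fx r = true) (hfs : fx s = false) :
    fx (sm r s) = false ∧ sm (sm r s) (br s) ≠ 127 ∧ fx (sm (sm r s) (br s)) = true ∧ br s ≠ sm r s ∧ br s ≠ 71 - sm r s := by
  have h1 := chkB_of hr hs
  unfold chkB at h1
  rw [Bool.and_eq_true, if_neg (by simpa using h)] at h1
  have h2 := h1.2
  rw [Bool.and_eq_true, if_pos hfr, if_neg (by rw [hfs]; decide)] at h2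
  have h3 := h2.2
  simp only [Bool.and_eq_true, Bool.not_eq_true', beq_eq_false_iff_ne] at h3
  obtain ⟨⟨⟨⟨a, b⟩, c⟩, d⟩, e⟩ := h3
  exact ⟨a, b, c, d, e⟩

theorem sm_ss {r s : ℕ} (hr : r < 72) (hs : s < 72) (h : sm r s ≠ 127) (hfr : fx r = false) (hfs : fx s = false) :
    sm r (br s) = 127 ∧ co (sm r s) (br s) = true ∧ co (sm r s) (br r) = true := by
  have h1 := chkB_of hr hs
  unfold chkB at h1
  rw [Bool.and_eq_true, if_neg (by simpa using h)] at h1
  have h2 := h1.2
  rw [Bool.and_eq_true, if_neg (by rw [hfr]; decide), if_neg (by rw [hfs]; decide)] at h2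
  have h3 := h2.2
  simp only [Bool.and_eq_true, beq_iff_eq] at h3
  obtain ⟨⟨a, b⟩, c⟩ := h3
  exact ⟨a, b, c⟩

variable {K : Type*} [Field K]

theorem ep_eq {r : ℕ} (hr : r < 72) : ep K r = ((ei r : ℤ) : K) := by
  obtain ⟨-, -, -, -, -, h⟩ := br_facts hr
  unfold ep ei gs
  have : wb gpE6_1 r = 0 ∨ wb gpE6_1 r = 1 := by omega
  rcases this with h1 | h1
  · rw [h1]; rfl
  · rw [h1]; rfl

theorem ep_sq {r : ℕ} (hr : r < 72) : ep K r * ep K r = 1 := by
  rw [ep_eq hr]
  unfold ei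
  split_ifs <;> simp

theorem ep_br {r : ℕ} (hr : r < 72) : ep K (br r) = ep K r := by
  obtain ⟨-, -, -, h, -, -⟩ := br_facts hr
  unfold ep gs
  rw [← h]

theorem ep_fx {r : ℕ} (hr : r < 72) (hf : fx r = true) : ep K r = 1 := by
  obtain ⟨-, -, -, -, h, -⟩ := br_facts hr
  rw [ep_eq hr]
  unfold ei
  rw [if_pos (h hf)]; simp

theorem ep_fix (φ : K ≃+* K) {r : ℕ} : φ (ep K r) = ep K r := by
  unfold ep
  exact map_intCast φ _

theorem CC_fix (φ : K ≃+* K) {r s : ℕ} : φ (CC K r s) = CC K r s := by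
  unfold CC
  exact map_intCast φ _

theorem sign_eq {r s : ℕ} (hr : r < 72) (hs : s < 72) (h : sm r s ≠ 127) :
    CC K (br r) (br s) * ep K r * ep K s = ep K (sm r s) * CC K r s := by
  obtain ⟨hc, -, -, h1, h2⟩ := sm_lt hr hs h
  have h3 := List.all_eq_true.1 (List.all_eq_true.1 chkC_all r (List.mem_range.2 hr)) s (List.mem_range.2 hs)
  unfold chkC at h3
  simp only [Bool.or_eq_true, beq_iff_eq] at h3
  rcases h3 with ((h3 | h3) | h3) | h3
  · exact absurd h3 h
  · exact absurd h3 h1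
  · exact absurd h3 h2
  · rw [ep_eq hr, ep_eq hs, ep_eq hc]
    have h4 := congrArg (fun z : ℤ => (z : K)) h3
    simp only [Int.cast_mul] at h4
    exact h4

/-- commuting root elements -/
theorem el_co {a b : ℕ} (ha : a < 72) (hb : b < 72) (h : sm a b = 127) (h1 : b ≠ 71 - a) (t u : K) :
    el a t * el b u = el b u * el a t := by
  by_cases hab : b = a
  · subst hab
    rw [← el_add hb, ← el_add hb, add_comm]
  · exact (el_comm ha hb hab h1 h t u).symm

theorem el_co' {a b : ℕ} (ha : a < 72) (hb : b < 72) (h : co a b = true) (t u : K) :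
    el a t * el b u = el b u * el a t := by
  unfold co at h
  simp only [Bool.and_eq_true, beq_iff_eq, Bool.not_eq_true', beq_eq_false_iff_ne] at h
  exact el_co ha hb h.1 h.2 t u

variable (φ : K ≃+* K)

theorem ys_fx {r : ℕ} (h : fx r = true) (t : K) : ys φ r t = el r t := by
  unfold ys; rw [if_pos h]

theorem ys_nf {r : ℕ} (h : fx r = false) (t : K) : ys φ r t = el r t * el (br r) (ep K r * φ t) := by
  unfold ys; rw [if_neg (by rw [h]; decide)]

theorem fx_br {r : ℕ} (hr : r < 72) (h : fx r = false) : fx (br r) = false := by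
  obtain ⟨-, -, h1, -, -, -⟩ := br_facts hr
  unfold fx at h ⊢
  rw [h1]
  simp only [beq_eq_false_iff_ne] at h ⊢
  exact fun e => h e.symm

theorem br_fx {r : ℕ} (h : fx r = true) : br r = r := by
  unfold fx at h
  exact beq_iff_eq.1 h

/-- the two factors commute -/
theorem el_br_comm {r : ℕ} (hr : r < 72) (t u : K) : el r t * el (br r) u = el (br r) u * el r t := by
  obtain ⟨-, h1, h2, -⟩ := sm_self hr
  exact el_co hr (br_facts hr).2.1 h1 h2 t u

theorem ys_br (hφφ : ∀ t, φ (φ t) = t) {r : ℕ} (hr : r < 72) (h : fx r = false) (t : K) :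
    ys φ (br r) (ep K r * φ t) = ys φ r t := by
  obtain ⟨-, hb, h1, -, -, -⟩ := br_facts hr
  rw [ys_nf φ h, ys_nf φ (fx_br hr h), h1, ep_br hr, map_mul, hφφ, ep_fix, ← mul_assoc, ep_sq hr, one_mul,
    el_br_comm hr]

/-- trace form -/
noncomputable def BB (r s : ℕ) (t u : K) : K := CC K r s * (t * u + φ (t * u))

theorem BB_fix (hφφ : ∀ t, φ (φ t) = t) (r s : ℕ) (t u : K) : φ (BB φ r s t u) = BB φ r s t u := by
  unfold BB
  rw [map_mul, CC_fix, map_add, hφφ, add_comm]

/-- the common part of the relations between short root elements -/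
theorem ys_ss (hφφ : ∀ t, φ (φ t) = t) {r s : ℕ} (hr : r < 72) (hs : s < 72) (h1 : s ≠ 71 - r) (h2 : s ≠ 71 - br r)
    (h3 : sm r s ≠ 127) (hfr : fx r = false) (hfs : fx s = false) (t u : K) :
    ys φ r t * ys φ s u = ys φ s u * (ys φ r t *
      (el (sm r s) (CC K r s * t * u) * el (br (sm r s)) (ep K (sm r s) * φ (CC K r s * t * u)))) := by
  obtain ⟨hc, hbc, hb127, hne, -⟩ := sm_lt hr hs h3
  obtain ⟨h4, h5, h6⟩ := sm_ss hr hs h3 hfr hfs
  obtain ⟨-, hbr, hbbr, -, -, -⟩ := br_facts hr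
  obtain ⟨-, hbs, hbbs, -, -, -⟩ := br_facts hs
  obtain ⟨-, -, -, hne', hne''⟩ := sm_lt hbr hbs hb127
  have h7 : sm (br r) s = 127 := by
    have := sm_br_none hr hbs h4
    rwa [hbbs] at this
  have h8 : br s ≠ 71 - r := by
    intro e
    apply h2
    rw [← hbbs, e, (sm_self hr).2.2.2]
  rw [ys_nf φ hfr, ys_nf φ hfs]
  refine abs_ss (el_shift hr hs hne h1 h3 t u) ?_ (el_co hr hbs h4 h8 _ _) (el_co hbr hs h7 h2 _ _)
    (el_co' hc hbs h5 _ _) (el_co' hc hbr h6 _ _)
  have h9 := el_shift hbr hbs hne' hne'' hb127 (ep K r * φ t) (ep K s * φ u)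
  rw [h9, hbc]
  have h10 : CC K (br r) (br s) * (ep K r * φ t) * (ep K s * φ u) = ep K (sm r s) * φ (CC K r s * t * u) := by
    rw [map_mul, map_mul, CC_fix]
    calc CC K (br r) (br s) * (ep K r * φ t) * (ep K s * φ u) = (CC K (br r) (br s) * ep K r * ep K s) * (φ t * φ u) := by ring
      _ = (ep K (sm r s) * CC K r s) * (φ t * φ u) := by rw [sign_eq hr hs h3]
      _ = _ := by ring
  rw [h10]

theorem ys_shiftSK (hφφ : ∀ t, φ (φ t) = t) {r s : ℕ} (hr : r < 72) (hs : s < 72) (h1 : s ≠ 71 - r) (h2 : s ≠ 71 - br r)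
    (h3 : sm r s ≠ 127) (hfr : fx r = false) (hfs : fx s = false) (hfc : fx (sm r s) = false) (t u : K) :
    ys φ r t * ys φ s u = ys φ s u * (ys φ r t * ys φ (sm r s) (CC K r s * t * u)) := by
  rw [ys_ss φ hφφ hr hs h1 h2 h3 hfr hfs t u, ys_nf φ hfc]

theorem ys_shiftSS (hφφ : ∀ t, φ (φ t) = t) {r s : ℕ} (hr : r < 72) (hs : s < 72) (h1 : s ≠ 71 - r) (h2 : s ≠ 71 - br r)
    (h3 : sm r s ≠ 127) (hfr : fx r = false) (hfs : fx s = false) (hfc : fx (sm r s) = true) (t u : K) :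
    ys φ r t * ys φ s u = ys φ s u * (ys φ r t * ys φ (sm r s) (BB φ r s t u)) := by
  obtain ⟨hc, -, -, -, -⟩ := sm_lt hr hs h3
  rw [ys_ss φ hφφ hr hs h1 h2 h3 hfr hfs t u, ys_fx φ hfc, br_fx hfc, ep_fx hc hfc, one_mul, ← el_add hc]
  congr 3
  unfold BB
  rw [mul_assoc, map_mul, CC_fix]
  ring

theorem BB_surj (hφφ : ∀ t, φ (φ t) = t) (hφ1 : ∃ z, φ z ≠ z) {r s : ℕ} (hr : r < 72) (hs : s < 72) (h1 : s ≠ 71 - r)
    (h2 : s ≠ 71 - br r) (h3 : sm r s ≠ 127) (hfr : fx r = false) (hfs : fx s = false) {u : K} (hu : u ≠ 0) {y : K}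
    (hy : φ y = y) : ∃ t, BB φ r s t u = y := by
  obtain ⟨hc, -, -, hne, -⟩ := sm_lt hr hs h3
  have hCC := CC_ne (F := K) hr hs hne h1 h3
  -- an element of nonzero trace
  obtain ⟨w, hw⟩ : ∃ w : K, w + φ w ≠ 0 := by
    by_contra hcon
    push Not at hcon
    have h1 := hcon 1
    rw [map_one] at h1
    obtain ⟨z, hz⟩ := hφ1
    apply hz
    have h2 := hcon z
    have h3 : φ z = -z := by
      rw [eq_neg_iff_add_eq_zero, add_comm]; exact h2
    rw [h3]
    have h4 : z * (1 + 1) = 0 := by rw [h1, mul_zero]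
    rw [mul_add, mul_one] at h4
    exact (eq_neg_iff_add_eq_zero.2 h4).symm
  have hwf : φ (w + φ w) = w + φ w := by rw [map_add, hφφ, add_comm]
  refine ⟨(y * (CC K r s)⁻¹ * (w + φ w)⁻¹ * w) * u⁻¹, ?_⟩
  unfold BB
  have h5 : (y * (CC K r s)⁻¹ * (w + φ w)⁻¹ * w) * u⁻¹ * u = y * (CC K r s)⁻¹ * (w + φ w)⁻¹ * w := by
    field_simp
  rw [h5]
  have h6 : φ (y * (CC K r s)⁻¹ * (w + φ w)⁻¹ * w) = y * (CC K r s)⁻¹ * (w + φ w)⁻¹ * φ w := by
    rw [map_mul, map_mul, map_mul, map_inv₀, map_inv₀, hwf, hy, CC_fix]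
  rw [h6, ← mul_add]
  field_simp

/-- long and short -/
theorem ys_ls (hφφ : ∀ t, φ (φ t) = t) {r s : ℕ} (hr : r < 72) (hs : s < 72) (h1 : s ≠ 71 - r)
    (h3 : sm r s ≠ 127) (hfr : fx r = true) (hfs : fx s = false) (t u : K) (ht : φ t = t) :
    ∃ e : K, φ e = e ∧ ys φ r t * ys φ s u = ys φ s u * (ys φ r t * (ys φ (sm r s) (CC K r s * t * u) *
      ys φ (sm (sm r s) (br s)) e)) := by
  obtain ⟨hc, hbc, hb127, hne, -⟩ := sm_lt hr hs h3
  obtain ⟨hfc, hd, hfd, h4, h5⟩ := sm_ls hr hs h3 hfr hfs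
  obtain ⟨-, hbs, hbbs, -, -, -⟩ := br_facts hs
  have hbr := br_fx hfr
  rw [hbr] at hbc hb127
  obtain ⟨-, -, -, hne', hne''⟩ := sm_lt hr hbs hb127
  refine ⟨CC K (sm r s) (br s) * (CC K r s * t * u) * (ep K s * φ u), ?_, ?_⟩
  · simp only [map_mul, CC_fix, ep_fix, hφφ, ht]
    ring
  · rw [ys_fx φ hfr, ys_nf φ hfs, ys_nf φ hfc, ys_fx φ hfd]
    have h6 := abs_ls (el_shift hr hs hne h1 h3 t u) (el_shift hr hbs hne' hne'' hb127 t (ep K s * φ u))
      (el_shift hc hbs h4 h5 hd (CC K r s * t * u) (ep K s * φ u))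
    rw [h6]
    have h10 : CC K r (br s) * t * (ep K s * φ u) = ep K (sm r s) * φ (CC K r s * t * u) := by
      have h11 := sign_eq (K := K) hr hs h3
      rw [hbr, ep_fx hr hfr, mul_one] at h11
      rw [map_mul, map_mul, CC_fix, ht]
      calc CC K r (br s) * t * (ep K s * φ u) = (CC K r (br s) * ep K s) * (t * φ u) := by ring
        _ = (ep K (sm r s) * CC K r s) * (t * φ u) := by rw [h11]
        _ = _ := by ring
    rw [h10, ← hbc, ← el_br_comm hc]

theorem mem_cm {r s c : ℕ} : c ∈ cm r s ↔ c ≠ 127 ∧ ((c = sm r s ∨ c = sm r (br s) ∨ c = sm (br r) s ∨ c = sm (br r) (br s)) ∨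
    (sm r s ≠ 127 ∧ (c = sm (sm r s) (br s) ∨ c = sm (sm r s) (br r)))) := by
  unfold cm
  rw [List.mem_filter]
  by_cases h : sm r s = 127
  · simp [h, and_comm]
  · simp [h, and_comm, or_assoc]

theorem cm_symm {r s : ℕ} (hr : r < 72) (hs : s < 72) {c : ℕ} (h : c ∈ cm s r) : c ∈ cm r s := by
  have hbr := (br_facts hr).2.1
  have hbs := (br_facts hs).2.1
  rw [mem_cm] at h ⊢
  rw [sm_symm hr hs, sm_symm hbr hs, sm_symm hr hbs, sm_symm hbr hbs] at h
  obtain ⟨h0, (h1 | h1 | h1 | h1) | ⟨h1, h2 | h2⟩⟩ := h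
  · exact ⟨h0, Or.inl (Or.inl h1)⟩
  · exact ⟨h0, Or.inl (Or.inr (Or.inr (Or.inl h1)))⟩
  · exact ⟨h0, Or.inl (Or.inr (Or.inl h1))⟩
  · exact ⟨h0, Or.inl (Or.inr (Or.inr (Or.inr h1)))⟩
  · exact ⟨h0, Or.inr ⟨h1, Or.inr h2⟩⟩
  · exact ⟨h0, Or.inr ⟨h1, Or.inl h2⟩⟩

theorem ys_comm (hφφ : ∀ t, φ (φ t) = t) {r s : ℕ} (hr : r < 72) (hs : s < 72) (h1 : s ≠ 71 - r) (h2 : s ≠ 71 - br r) (t u : K)
    (ht : fx r = true → φ t = t) (hu : fx s = true → φ u = u) :
    ∃ w ∈ Subgroup.closure {x | ∃ c ∈ cm r s, ∃ z : K, (fx c = true → φ z = z) ∧ x = ys φ c z},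
      ys φ r t * ys φ s u = ys φ s u * (ys φ r t * w) := by
  obtain ⟨-, hbr, hbbr, -, -, -⟩ := br_facts hr
  obtain ⟨-, hbs, hbbs, -, -, -⟩ := br_facts hs
  -- the case of one long root
  have key : ∀ {r s : ℕ}, r < 72 → s < 72 → s ≠ 71 - r → fx r = true → fx s = false → ∀ t u : K, φ t = t →
      ∃ w ∈ Subgroup.closure {x | ∃ c ∈ cm r s, ∃ z : K, (fx c = true → φ z = z) ∧ x = ys φ c z},
      ys φ r t * ys φ s u = ys φ s u * (ys φ r t * w) := by
    intro r s hr hs h1 hfr hfs t u ht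
    obtain ⟨-, hbs, hbbs, -, -, -⟩ := br_facts hs
    by_cases h3 : sm r s = 127
    · refine ⟨1, Subgroup.one_mem _, ?_⟩
      have h4 := sm_br_none hr hs h3
      rw [br_fx hfr] at h4
      have h5 : br s ≠ 71 - r := by
        intro e
        apply h1
        rw [← hbbs, e, (sm_self hr).2.2.2, br_fx hfr]
      rw [ys_fx φ hfr, ys_nf φ hfs, mul_one, ← mul_assoc, el_co hr hs h3 h1, mul_assoc, el_co hr hbs h4 h5, mul_assoc]
    · obtain ⟨e, he, h⟩ := ys_ls φ hφφ hr hs h1 h3 hfr hfs t u ht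
      obtain ⟨hfc, hd, hfd, h4, h5⟩ := sm_ls hr hs h3 hfr hfs
      refine ⟨_, ?_, h⟩
      refine Subgroup.mul_mem _ (Subgroup.subset_closure ⟨sm r s, ?_, _, ?_, rfl⟩)
        (Subgroup.subset_closure ⟨sm (sm r s) (br s), ?_, e, fun _ => he, rfl⟩)
      · exact mem_cm.2 ⟨h3, Or.inl (Or.inl rfl)⟩
      · intro h; rw [hfc] at h; exact absurd h (by decide)
      · exact mem_cm.2 ⟨hd, Or.inr ⟨h3, Or.inl rfl⟩⟩
  rcases hfr : fx r with _ | _
  · rcases hfs : fx s with _ | _
    · -- both short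
      by_cases h3 : sm r s = 127
      · by_cases h4 : sm r (br s) = 127
        · -- all commute
          refine ⟨1, Subgroup.one_mem _, ?_⟩
          have h5 := sm_br_none hr hs h3
          have h6 := sm_br_none hr hbs h4
          rw [hbbs] at h6
          have h7 : br s ≠ 71 - r := by
            intro e; apply h2; rw [← hbbs, e, (sm_self hr).2.2.2]
          have h8 : br s ≠ 71 - br r := by
            intro e; apply h1; rw [← hbbs, e, (sm_self hbr).2.2.2, hbbr]
          rw [ys_nf φ hfr, ys_nf φ hfs, mul_one]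
          have := abs_ss (a := el r t) (a' := el (br r) (ep K r * φ t)) (b := el s u) (b' := el (br s) (ep K s * φ u))
            (z := 1) (z' := 1) (by rw [mul_one]; exact el_co hr hs h3 h1 _ _)
            (by rw [mul_one]; exact el_co hbr hbs h5 h8 _ _) (el_co hr hbs h4 h7 _ _) (el_co hbr hs h6 h2 _ _)
            (by rw [one_mul, mul_one]) (by rw [one_mul, mul_one])
          rw [mul_one, mul_one] at this
          exact this
        · -- replace s by br s
          have hfs' := fx_br hs hfs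
          have h7 : br s ≠ 71 - r := by
            intro e; apply h2; rw [← hbbs, e, (sm_self hr).2.2.2]
          have h8 : br s ≠ 71 - br r := by
            intro e; apply h1; rw [← hbbs, e, (sm_self hbr).2.2.2, hbbr]
          rw [← ys_br φ hφφ hs hfs u]
          rcases hfc : fx (sm r (br s)) with _ | _
          · refine ⟨_, ?_, ys_shiftSK φ hφφ hr hbs h7 h8 h4 hfr hfs' hfc t _⟩
            refine Subgroup.subset_closure ⟨sm r (br s), ?_, _, ?_, rfl⟩
            · exact mem_cm.2 ⟨h4, Or.inl (Or.inr (Or.inl rfl))⟩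
            · intro h; rw [hfc] at h; exact absurd h (by decide)
          · refine ⟨_, ?_, ys_shiftSS φ hφφ hr hbs h7 h8 h4 hfr hfs' hfc t _⟩
            refine Subgroup.subset_closure ⟨sm r (br s), ?_, _, fun _ => BB_fix φ hφφ _ _ _ _, rfl⟩
            exact mem_cm.2 ⟨h4, Or.inl (Or.inr (Or.inl rfl))⟩
      · rcases hfc : fx (sm r s) with _ | _
        · refine ⟨_, ?_, ys_shiftSK φ hφφ hr hs h1 h2 h3 hfr hfs hfc t _⟩
          refine Subgroup.subset_closure ⟨sm r s, ?_, _, ?_, rfl⟩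
          · exact mem_cm.2 ⟨h3, Or.inl (Or.inl rfl)⟩
          · intro h; rw [hfc] at h; exact absurd h (by decide)
        · refine ⟨_, ?_, ys_shiftSS φ hφφ hr hs h1 h2 h3 hfr hfs hfc t _⟩
          refine Subgroup.subset_closure ⟨sm r s, ?_, _, fun _ => BB_fix φ hφφ _ _ _ _, rfl⟩
          exact mem_cm.2 ⟨h3, Or.inl (Or.inl rfl)⟩
    · -- r short, s long
      have h5 : r ≠ 71 - s := by omega
      obtain ⟨w, hw, h⟩ := key hs hr h5 hfs hfr u t (hu hfs)
      refine ⟨w⁻¹, Subgroup.inv_mem _ ?_, ?_⟩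
      · refine Subgroup.closure_mono ?_ hw
        rintro x ⟨c, hc, z, hz, rfl⟩
        exact ⟨c, cm_symm hr hs hc, z, hz, rfl⟩
      · rw [← mul_assoc (ys φ s u), h]
        group
  · rcases hfs : fx s with _ | _
    · exact key hr hs h1 hfr hfs t u (ht hfr)
    · -- both long
      rw [ys_fx φ hfr, ys_fx φ hfs]
      by_cases h3 : sm r s = 127
      · refine ⟨1, Subgroup.one_mem _, ?_⟩
        rw [mul_one]
        exact el_co hr hs h3 h1 _ _
      · obtain ⟨hc, hbc, hb127, hne, -⟩ := sm_lt hr hs h3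
        have hfc : fx (sm r s) = true := by
          unfold fx
          rw [hbc, br_fx hfr, br_fx hfs]
          exact beq_self_eq_true _
        refine ⟨ys φ (sm r s) (CC K r s * t * u), Subgroup.subset_closure ⟨sm r s, ?_, _, ?_, rfl⟩, ?_⟩
        · exact mem_cm.2 ⟨h3, Or.inl (Or.inl rfl)⟩
        · intro _
          rw [map_mul, map_mul, CC_fix, ht hfr, hu hfs]
        · rw [ys_fx φ hfc]
          exact el_shift hr hs hne h1 h3 t u

end Cfsg.Agent.E6Tw
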