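import Cfsg.Agent.E6Tw.Act
import Cfsg.Agent.E6Min.Bridge
import Cfsg.Agent.ChevTw.RowsE6

set_option autoImplicit false

/-!
# The root elements of the twisted group of type E6 (helper19)
-/

namespace Cfsg.Agent.E6Tw

open Module Cfsg.Lie Cfsg.Agent.ChevU Cfsg.Agent.E6Min
open Cfsg.Agent.Chev (gs wb wv gpE6_1)

variable {K : Type*} [Field K]

/-- the signs of the graph automorphism -/
noncomputable def ep (K : Type*) [Field K] (r : ℕ) : K := ((gs gpE6_1 r : ℤ) : K)

/-- the root elements of the twisted group -/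
noncomputable def ys (φ : K ≃+* K) (r : ℕ) (t : K) : chevE6.group K :=
  if fx r = true then el r t else el r t * el (br r) (ep K r * φ t)

set_option maxRecDepth 100000 in
theorem chk_br : ((List.range 72).all fun r => (wv gpE6_1 r == br r) && Nat.blt (br r) 72 && (br (br r) == r) &&
    (wb gpE6_1 r == wb gpE6_1 (br r)) && (!(fx r) || wb gpE6_1 r == 0) && Nat.blt (wb gpE6_1 r) 2) = true := by decide +kernel

theorem br_facts {r : ℕ} (h : r < 72) : wv gpE6_1 r = br r ∧ br r < 72 ∧ br (br r) = r ∧ wb gpE6_1 r = wb gpE6_1 (br r) ∧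
    (fx r = true → wb gpE6_1 r = 0) ∧ wb gpE6_1 r < 2 := by
  have h1 := List.all_eq_true.1 chk_br r (List.mem_range.2 h)
  simp only [Bool.and_eq_true, beq_iff_eq, Nat.blt_eq, Bool.or_eq_true, Bool.not_eq_true'] at h1
  obtain ⟨⟨⟨⟨⟨a, b⟩, c⟩, d⟩, e⟩, f⟩ := h1
  refine ⟨a, b, c, d, fun hf => ?_, f⟩
  rcases e with e | e
  · rw [hf] at e; exact absurd e (by decide)
  · exact e

end Cfsg.Agent.E6Tw
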